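import Mathlib
import Cfsg.Prelude.Def_LieTypeDatum
import Cfsg.Agent.Lib.Helper18.OrthRefl

set_option autoImplicit false

/-!
Automorphisms of `PΩ(Q)`: conjugation by the similarity group, field automorphisms.
-/

namespace Cfsg.Agent.Lib.Helper59.AutO

section Gen

variable {G : Type*} [Group G]

/-- restriction of an automorphism to the commutator subgroup -/
def resC (e : G ≃* G) : ↥(commutator G) ≃* ↥(commutator G) :=
  (e.subgroupMap (commutator G)).trans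
    (MulEquiv.subgroupCongr (Subgroup.characteristic_iff_map_eq.1 inferInstance e))

theorem resC_val (e : G ≃* G) (x : ↥(commutator G)) : (resC e x).1 = e x.1 := rfl

/-- the automorphism induced on the commutator subgroup modulo its centre -/
noncomputable def indQ (e : G ≃* G) :
    (↥(commutator G) ⧸ Subgroup.center ↥(commutator G)) ≃*
      (↥(commutator G) ⧸ Subgroup.center ↥(commutator G)) :=
  QuotientGroup.congr _ _ (resC e) (Subgroup.characteristic_iff_map_eq.1 inferInstance (resC e))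

theorem indQ_mk (e : G ≃* G) (x : ↥(commutator G)) :
    indQ e (QuotientGroup.mk x) = QuotientGroup.mk (resC e x) := rfl

/-- the induced automorphism, as a homomorphism -/
noncomputable def indC :
    MulAut G →* MulAut (↥(commutator G) ⧸ Subgroup.center ↥(commutator G)) where
  toFun := indQ
  map_one' := by
    ext x
    obtain ⟨x, rfl⟩ := QuotientGroup.mk_surjective x
    rfl
  map_mul' a b := by
    ext x
    obtain ⟨x, rfl⟩ := QuotientGroup.mk_surjective x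
    rfl

theorem indC_mk (e : MulAut G) (x : ↥(commutator G)) :
    indC e (QuotientGroup.mk x) = QuotientGroup.mk (resC e x) := rfl

theorem indC_conj (y : ↥(commutator G)) :
    indC (MulAut.conj y.1) =
      MulAut.conj (QuotientGroup.mk y : ↥(commutator G) ⧸ Subgroup.center ↥(commutator G)) := by
  ext x
  obtain ⟨x, rfl⟩ := QuotientGroup.mk_surjective x
  rfl

end Gen

open Matrix QuadraticMap

variable {ι : Type} [Fintype ι] [DecidableEq ι] {F : Type*} [Field F] {K : Type*} [Field K]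

/-- the Gram matrix of the polar form -/
noncomputable def Bm (Q : QuadraticForm F (ι → F)) : Matrix ι ι F :=
  LinearMap.BilinForm.toMatrix' (polarBilin Q)

theorem Bm_apply (Q : QuadraticForm F (ι → F)) (i j : ι) :
    Bm Q i j = polar Q (Pi.single i 1) (Pi.single j 1) := by
  rw [Bm, LinearMap.BilinForm.toMatrix'_apply]
  rfl

theorem polar_eq (Q : QuadraticForm F (ι → F)) (u v : ι → F) :
    polar Q u v = u ⬝ᵥ (Bm Q *ᵥ v) := by
  rw [← Matrix.toBilin'_apply', Bm, Matrix.toBilin'_toMatrix']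
  rfl

theorem two_mul_Q (Q : QuadraticForm F (ι → F)) (v : ι → F) :
    2 * Q v = v ⬝ᵥ (Bm Q *ᵥ v) := by
  rw [← polar_eq, polar_self]
  simp

theorem Bm_transpose (Q : QuadraticForm F (ι → F)) : (Bm Q)ᵀ = Bm Q := by
  ext i j
  rw [transpose_apply, Bm_apply, Bm_apply, polar_comm]

theorem dot_conj (A M B : Matrix ι ι F) (u v : ι → F) :
    (A *ᵥ u) ⬝ᵥ (M *ᵥ (B *ᵥ v)) = u ⬝ᵥ ((Aᵀ * M * B) *ᵥ v) := by
  rw [← Matrix.vecMul_transpose, ← Matrix.dotProduct_mulVec, Matrix.mulVec_mulVec,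
    Matrix.mulVec_mulVec, Matrix.mul_assoc]

theorem eq_of_forall_dot {M N : Matrix ι ι F}
    (h : ∀ u v, u ⬝ᵥ (M *ᵥ v) = u ⬝ᵥ (N *ᵥ v)) : M = N := by
  ext i j
  have := h (Pi.single i 1) (Pi.single j 1)
  simpa using this

theorem sim_iff (h2 : (2 : F) ≠ 0) (Q : QuadraticForm F (ι → F)) (g : Matrix ι ι F) (c : F) :
    (∀ v, Q (g *ᵥ v) = c * Q v) ↔ gᵀ * Bm Q * g = c • Bm Q := by
  constructor
  · intro h
    apply eq_of_forall_dot
    intro u v
    rw [← dot_conj, ← polar_eq, Matrix.smul_mulVec, dotProduct_smul, ← polar_eq]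
    unfold polar
    rw [← Matrix.mulVec_add, h, h, h, smul_eq_mul]
    ring
  · intro h v
    apply mul_left_cancel₀ h2
    rw [two_mul_Q, dot_conj, h, Matrix.smul_mulVec, dotProduct_smul, ← two_mul_Q, smul_eq_mul]
    ring

/-- standing hypotheses on the form -/
class Std (Q : QuadraticForm F (ι → F)) : Prop where
  two_ne : (2 : F) ≠ 0
  det_ne : (Bm Q).det ≠ 0
  ne : Nonempty ι
  map_eq : ∀ σ : F →+* F, (Bm Q).map σ = Bm Q

/-- the similarity group -/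
abbrev GO (Q : QuadraticForm F (ι → F)) : Subgroup (GL ι F) :=
  Cfsg.Geo.quadSimilarityGroup (F := F) ⇑Q

/-- the isometry group -/
abbrev OO (Q : QuadraticForm F (ι → F)) : Subgroup (GL ι F) := Cfsg.isometryGroup F ⇑Q

variable (Q : QuadraticForm F (ι → F)) [hS : Std Q]

theorem mem_GO_iff {g : GL ι F} :
    g ∈ GO Q ↔ ∃ c : Fˣ, g.1ᵀ * Bm Q * g.1 = (c : F) • Bm Q := by
  constructor
  · rintro ⟨c, hc⟩
    exact ⟨c, (sim_iff hS.two_ne Q g.1 c).1 hc⟩
  · rintro ⟨c, hc⟩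
    exact ⟨c, (sim_iff hS.two_ne Q g.1 c).2 hc⟩

theorem mem_OO_iff {g : GL ι F} : g ∈ OO Q ↔ g.1ᵀ * Bm Q * g.1 = Bm Q := by
  rw [Cfsg.Agent.Lib.Helper18.mem_iso_iff]
  have := sim_iff hS.two_ne Q g.1 1
  simp only [one_mul, one_smul] at this
  exact this

theorem smul_B_inj {a b : F} (h : a • Bm Q = b • Bm Q) : a = b := by
  have hu : IsUnit (Bm Q).det := isUnit_iff_ne_zero.2 hS.det_ne
  have h1 := congrArg (fun M => M * (Bm Q)⁻¹) h
  simp only [Matrix.smul_mul, Matrix.mul_nonsing_inv _ hu] at h1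
  obtain ⟨i⟩ := hS.ne
  have h2 := congrFun (congrFun h1 i) i
  simpa using h2

/-- the multiplier of a similarity -/
noncomputable def mu0 (g : ↥(GO Q)) : Fˣ := Classical.choose ((mem_GO_iff Q).1 g.2)

theorem mu0_spec (g : ↥(GO Q)) : g.1.1ᵀ * Bm Q * g.1.1 = (mu0 Q g : F) • Bm Q :=
  Classical.choose_spec ((mem_GO_iff Q).1 g.2)

theorem mu0_eq (g : ↥(GO Q)) (c : Fˣ) (h : g.1.1ᵀ * Bm Q * g.1.1 = (c : F) • Bm Q) :
    mu0 Q g = c := by
  apply Units.ext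
  apply smul_B_inj Q
  rw [← mu0_spec, h]

/-- the multiplier as a homomorphism -/
noncomputable def mu : ↥(GO Q) →* Fˣ where
  toFun := mu0 Q
  map_one' := mu0_eq Q 1 1 (by
    show (1 : Matrix ι ι F)ᵀ * Bm Q * 1 = _
    simp)
  map_mul' a b := mu0_eq Q _ _ (by
    show (a.1.1 * b.1.1)ᵀ * Bm Q * (a.1.1 * b.1.1) = _
    calc (a.1.1 * b.1.1)ᵀ * Bm Q * (a.1.1 * b.1.1)
        = b.1.1ᵀ * (a.1.1ᵀ * Bm Q * a.1.1) * b.1.1 := by
          simp only [transpose_mul, Matrix.mul_assoc]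
      _ = (mu0 Q a : F) • (b.1.1ᵀ * Bm Q * b.1.1) := by
          rw [mu0_spec, Matrix.mul_smul, Matrix.smul_mul]
      _ = _ := by rw [mu0_spec, smul_smul, Units.val_mul])

theorem mu_spec (g : ↥(GO Q)) : g.1.1ᵀ * Bm Q * g.1.1 = (mu Q g : F) • Bm Q := mu0_spec Q g

theorem mu_eq (g : ↥(GO Q)) (c : Fˣ) (h : g.1.1ᵀ * Bm Q * g.1.1 = (c : F) • Bm Q) :
    mu Q g = c := mu0_eq Q g c h

/-! ### the projection -/

/-- the projection `Ω → PΩ` -/
abbrev pm (x : ↥(Cfsg.Omega F ⇑Q)) : Cfsg.POmega F ⇑Q := QuotientGroup.mk x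

theorem pm_surjective : Function.Surjective (pm Q) := QuotientGroup.mk_surjective

/-! ### conjugation by `GO` -/

theorem conj_mem (g : ↥(GO Q)) (x : ↥(OO Q)) : g.1 * x.1 * g.1⁻¹ ∈ OO Q := by
  rw [mem_OO_iff]
  have hx := (mem_OO_iff Q).1 x.2
  show (g.1.1 * x.1.1 * g.1⁻¹.1)ᵀ * Bm Q * (g.1.1 * x.1.1 * g.1⁻¹.1) = _
  calc (g.1.1 * x.1.1 * g.1⁻¹.1)ᵀ * Bm Q * (g.1.1 * x.1.1 * g.1⁻¹.1)
      = g.1⁻¹.1ᵀ * (x.1.1ᵀ * (g.1.1ᵀ * Bm Q * g.1.1) * x.1.1) * g.1⁻¹.1 := by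
        simp only [transpose_mul, Matrix.mul_assoc]
    _ = g.1⁻¹.1ᵀ * ((mu0 Q g : F) • (x.1.1ᵀ * Bm Q * x.1.1)) * g.1⁻¹.1 := by
        rw [mu0_spec, Matrix.mul_smul, Matrix.smul_mul]
    _ = g.1⁻¹.1ᵀ * (g.1.1ᵀ * Bm Q * g.1.1) * g.1⁻¹.1 := by rw [hx, mu0_spec]
    _ = (g.1.1 * g.1⁻¹.1)ᵀ * Bm Q * (g.1.1 * g.1⁻¹.1) := by
        simp only [transpose_mul, Matrix.mul_assoc]
    _ = _ := by rw [Units.mul_inv]; simp

/-- conjugation by an element of `GO` on `O` -/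
def cI (g : ↥(GO Q)) : ↥(OO Q) ≃* ↥(OO Q) where
  toFun x := ⟨g.1 * x.1 * g.1⁻¹, conj_mem Q g x⟩
  invFun x := ⟨g.1⁻¹ * x.1 * g.1, by simpa using conj_mem Q g⁻¹ x⟩
  left_inv x := Subtype.ext (by
    show g.1⁻¹ * (g.1 * x.1 * g.1⁻¹) * g.1 = x.1
    group)
  right_inv x := Subtype.ext (by
    show g.1 * (g.1⁻¹ * x.1 * g.1) * g.1⁻¹ = x.1
    group)
  map_mul' x y := Subtype.ext (by
    show g.1 * (x.1 * y.1) * g.1⁻¹ = (g.1 * x.1 * g.1⁻¹) * (g.1 * y.1 * g.1⁻¹)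
    group)

theorem cI_val (g : ↥(GO Q)) (x : ↥(OO Q)) : (cI Q g x).1 = g.1 * x.1 * g.1⁻¹ := rfl

/-- conjugation as a homomorphism -/
def cIHom : ↥(GO Q) →* MulAut ↥(OO Q) where
  toFun := cI Q
  map_one' := by
    ext x : 1
    apply Subtype.ext
    show (1 : GL ι F) * x.1 * (1 : GL ι F)⁻¹ = x.1
    group
  map_mul' a b := by
    ext x : 1
    apply Subtype.ext
    show (a.1 * b.1) * x.1 * (a.1 * b.1)⁻¹ = a.1 * (b.1 * x.1 * b.1⁻¹) * a.1⁻¹
    group

/-- conjugation by `GO` on `PΩ` -/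
noncomputable def cG : ↥(GO Q) →* MulAut (Cfsg.POmega F ⇑Q) := indC.comp (cIHom Q)

theorem cG_pm (g : ↥(GO Q)) (x : ↥(Cfsg.Omega F ⇑Q)) :
    cG Q g (pm Q x) = pm Q (resC (cI Q g) x) := rfl

/-! ### base change -/

variable (Q₀ : QuadraticForm K (ι → K)) [hS₀ : Std Q₀]

theorem map_mem_OO (j : K →+* F) (hj : (Bm Q₀).map j = Bm Q) (x : ↥(OO Q₀)) :
    GeneralLinearGroup.map j x.1 ∈ OO Q := by
  rw [mem_OO_iff]
  have hx := (mem_OO_iff Q₀).1 x.2
  show (x.1.1.map j)ᵀ * Bm Q * x.1.1.map j = _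
  rw [← hj, ← transpose_map, ← Matrix.map_mul, ← Matrix.map_mul, hx]

/-- base change `O(K) → O(F)` -/
def omap (j : K →+* F) (hj : (Bm Q₀).map j = Bm Q) : ↥(OO Q₀) →* ↥(OO Q) where
  toFun x := ⟨GeneralLinearGroup.map j x.1, map_mem_OO Q Q₀ j hj x⟩
  map_one' := Subtype.ext (map_one _)
  map_mul' x y := Subtype.ext (map_mul _ _ _)

theorem omap_val (j : K →+* F) (hj : (Bm Q₀).map j = Bm Q) (x : ↥(OO Q₀)) :
    (omap Q Q₀ j hj x).1.1 = x.1.1.map j := rfl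

theorem map_smul_B (j : K →+* F) (hj : (Bm Q₀).map j = Bm Q) (c : K) :
    (c • Bm Q₀).map j = j c • Bm Q := by
  rw [← hj]
  ext i k
  simp

theorem map_mem_GO (j : K →+* F) (hj : (Bm Q₀).map j = Bm Q) (g : ↥(GO Q₀)) :
    GeneralLinearGroup.map j g.1 ∈ GO Q := by
  rw [mem_GO_iff]
  refine ⟨Units.map (j : K →* F) (mu0 Q₀ g), ?_⟩
  show (g.1.1.map j)ᵀ * Bm Q * g.1.1.map j = j (mu0 Q₀ g : K) • Bm Q
  rw [← map_smul_B Q Q₀ j hj, ← mu0_spec, Matrix.map_mul, Matrix.map_mul, hj, transpose_map]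

/-- base change `GO(K) → GO(F)` -/
noncomputable def gmap (j : K →+* F) (hj : (Bm Q₀).map j = Bm Q) : ↥(GO Q₀) →* ↥(GO Q) where
  toFun g := ⟨GeneralLinearGroup.map j g.1, map_mem_GO Q Q₀ j hj g⟩
  map_one' := Subtype.ext (map_one _)
  map_mul' a b := Subtype.ext (map_mul _ _ _)

theorem gmap_val (j : K →+* F) (hj : (Bm Q₀).map j = Bm Q) (g : ↥(GO Q₀)) :
    (gmap Q Q₀ j hj g).1.1 = g.1.1.map j := rfl

theorem gmap_val' (j : K →+* F) (hj : (Bm Q₀).map j = Bm Q) (g : ↥(GO Q₀)) :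
    (gmap Q Q₀ j hj g).1 = GeneralLinearGroup.map j g.1 := rfl

theorem mu_gmap (j : K →+* F) (hj : (Bm Q₀).map j = Bm Q) (g : ↥(GO Q₀)) :
    (mu Q (gmap Q Q₀ j hj g) : F) = j (mu Q₀ g : K) := by
  have : mu Q (gmap Q Q₀ j hj g) = Units.map (j : K →* F) (mu Q₀ g) := by
    apply mu_eq
    show (g.1.1.map j)ᵀ * Bm Q * g.1.1.map j = j (mu Q₀ g : K) • Bm Q
    rw [← map_smul_B Q Q₀ j hj, ← mu_spec, Matrix.map_mul, Matrix.map_mul, hj, transpose_map]
  rw [this]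
  rfl

/-- the action of a field automorphism on `GO` -/
noncomputable abbrev gm (σ : F ≃+* F) : ↥(GO Q) →* ↥(GO Q) :=
  gmap Q Q (σ : F →+* F) (hS.map_eq _)

/-- a ring automorphism acting on `O` -/
def fldI (σ : F ≃+* F) : ↥(OO Q) ≃* ↥(OO Q) where
  toFun := omap Q Q (σ : F →+* F) (hS.map_eq _)
  invFun := omap Q Q (σ.symm : F →+* F) (hS.map_eq _)
  left_inv A := by
    apply Subtype.ext
    apply Units.ext
    ext i j
    simp [omap_val]
  right_inv A := by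
    apply Subtype.ext
    apply Units.ext
    ext i j
    simp [omap_val]
  map_mul' A B := map_mul _ A B

theorem fldI_val (σ : F ≃+* F) (x : ↥(OO Q)) : (fldI Q σ x).1.1 = x.1.1.map σ := rfl

theorem fldI_val' (σ : F ≃+* F) (x : ↥(OO Q)) :
    (fldI Q σ x).1 = GeneralLinearGroup.map (σ : F →+* F) x.1 := rfl

/-- field automorphisms on `O`, as a homomorphism -/
def fldHom : (F ≃+* F) →* MulAut ↥(OO Q) where
  toFun := fldI Q
  map_one' := by
    ext x : 1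
    apply Subtype.ext
    apply Units.ext
    ext i j
    rfl
  map_mul' a b := by
    ext x : 1
    apply Subtype.ext
    apply Units.ext
    ext i j
    rfl

/-- the standard field automorphisms, as a homomorphism -/
noncomputable def fl : (F ≃+* F) →* MulAut (Cfsg.POmega F ⇑Q) := indC.comp (fldHom Q)

theorem fl_pm (σ : F ≃+* F) (x : ↥(Cfsg.Omega F ⇑Q)) :
    fl Q σ (pm Q x) = pm Q (resC (fldI Q σ) x) := rfl

theorem fldHom_mul_cIHom (σ : F ≃+* F) (g : ↥(GO Q)) :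
    fldHom Q σ * cIHom Q g = cIHom Q (gm Q σ g) * fldHom Q σ := by
  ext x : 1
  apply Subtype.ext
  show GeneralLinearGroup.map (σ : F →+* F) (g.1 * x.1 * g.1⁻¹) =
    GeneralLinearGroup.map (σ : F →+* F) g.1 * GeneralLinearGroup.map (σ : F →+* F) x.1 *
      (GeneralLinearGroup.map (σ : F →+* F) g.1)⁻¹
  rw [map_mul, map_mul, map_inv]

theorem fl_mul_cG (σ : F ≃+* F) (g : ↥(GO Q)) :
    fl Q σ * cG Q g = cG Q (gm Q σ g) * fl Q σ := by
  show indC (fldHom Q σ) * indC (cIHom Q g) = indC (cIHom Q (gm Q σ g)) * indC (fldHom Q σ)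
  rw [← map_mul, ← map_mul, fldHom_mul_cIHom]

end Cfsg.Agent.Lib.Helper59.AutO
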