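import Mathlib
import Cfsg.Agent.Lib.Helper18.OmegaFrames
import Cfsg.Agent.Lib.Helper59.AutO.Basic

set_option autoImplicit false

/-!
Rigidity: an additive map commuting with `Ω(Q)` is a scalar (odd characteristic, Witt index at
least three).  Adapted from `Helper18.OmegaCenter.scalar_of_centralizes`.
-/

namespace Cfsg.Agent.Lib.Helper59.AutO

open QuadraticMap Module
open Cfsg.Agent.Lib.Helper49 Cfsg.Agent.Lib.Helper18.OmegaCenter

section

variable {F V : Type*} [Field F] [Finite F] [AddCommGroup V] [Module F V] [FiniteDimensional F V]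
  {Q : QuadraticForm F V}

/-- step A for the model vector -/
theorem add_eigen_model (hQ : (polarBilin Q).Nondegenerate) {e f : Fin 3 → V} (h : Frame3 Q e f)
    (T : V →+ V) (hT : ∀ k ∈ commutator (OG Q), ∀ x, T (k.1 x) = k.1 (T x)) (c : F) (hc : c ≠ 0) :
    ∃ α : F, T (e 0 + c • f 0) = α • (e 0 + c • f 0) := by
  set a := e 0 + c • f 0 with ha
  set x := (-c) • f 0 with hx
  have hQa : Q a = c := h.Q_hyp 0 c
  have key : ∀ j : Fin 3, j ≠ 0 → T a =
      - ((c⁻¹ * polar Q a (T x)) • a) - (c⁻¹ * polar Q (e j + c • f j) (T x)) • (e j + c • f j) := by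
    intro j hj
    set b := e j + c • f j with hb
    have hQb : Q b = c := h.Q_hyp j c
    have hab : polar Q a b = 0 := by
      simp only [ha, hb, polar_add_left, polar_add_right, polar_smul_left, polar_smul_right,
        h.ee, h.ff, h.ef, h.fe, smul_eq_mul]
      simp [hj, hj.symm]
    have hk : refl Q a * refl Q b ∈ commutator (OG Q) :=
      refl_mul_refl_mem_commutator_of_eq Q hQ a b (by rw [hQa]; exact hc) (by rw [hQa, hQb])
    have h1 : (refl Q a * refl Q b).1 x = x + a := by
      rw [refl_mul_refl_apply a b x hab, hQa, hQb]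
      have e1 : polar Q a x = -c := by
        simp only [ha, hx, polar_add_left, polar_smul_left, polar_smul_right, h.ef, h.ff,
          smul_eq_mul]
        simp
      have e2 : polar Q b x = 0 := by
        simp only [hb, hx, polar_add_left, polar_smul_left, polar_smul_right, h.ef, h.ff,
          smul_eq_mul]
        simp [hj]
      rw [e1, e2]
      have : c⁻¹ * -c = -1 := by field_simp
      rw [this]
      simp
    have h2 : T ((refl Q a * refl Q b).1 x) = (refl Q a * refl Q b).1 (T x) := hT _ hk x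
    rw [h1, map_add, refl_mul_refl_apply a b _ hab, hQa, hQb] at h2
    have h3 : T a = (T x + T a) - T x := by abel
    rw [h3, h2]
    abel
  have k1 := key 1 (by decide)
  have k2 := key 2 (by decide)
  have p1 : polar Q (f 1) (T a) = - (c⁻¹ * polar Q (e 1 + c • f 1) (T x)) := by
    rw [k1]
    simp only [ha, polar_sub_right, polar_neg_right, polar_add_right, polar_smul_right, h.fe, h.ff,
      smul_eq_mul]
    simp
  have p2 : polar Q (f 1) (T a) = 0 := by
    rw [k2]
    simp only [ha, polar_sub_right, polar_neg_right, polar_add_right, polar_smul_right, h.fe, h.ff,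
      smul_eq_mul]
    simp
  rw [p2] at p1
  have p3 : c⁻¹ * polar Q (e 1 + c • f 1) (T x) = 0 := by
    have := p1.symm
    rwa [neg_eq_zero] at this
  rw [p3, zero_smul, sub_zero] at k1
  exact ⟨-(c⁻¹ * polar Q a (T x)), by rw [k1, neg_smul]⟩

/-- step A: every nonsingular vector is an eigenvector -/
theorem add_eigen_nonsingular (hQ : (polarBilin Q).Nondegenerate) {e f : Fin 3 → V}
    (h : Frame3 Q e f) (T : V →+ V)
    (hT : ∀ k ∈ commutator (OG Q), ∀ x, T (k.1 x) = k.1 (T x)) (a : V) (ha : Q a ≠ 0) :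
    ∃ α : F, T a = α • a := by
  obtain ⟨c, hc⟩ : ∃ c, c = Q a := ⟨_, rfl⟩
  have h0 : Q (e 0 + c • f 0) = Q a := by rw [h.Q_hyp 0 _, hc]
  obtain ⟨g, hg⟩ := exists_OG_map_vec Q hQ (e 0 + c • f 0) a
    (ne_zero_of_Q_ne_zero Q (by rw [h0]; exact ha)) (ne_zero_of_Q_ne_zero Q ha) h0
  obtain ⟨α, hα⟩ := add_eigen_model hQ (h.map g) T hT c (by rw [hc]; exact ha)
  refine ⟨α, ?_⟩
  have : g.1 (e 0) + c • g.1 (f 0) = a := by rw [← hg, map_add, map_smul]
  rwa [this] at hα

omit [Finite F] [FiniteDimensional F V] in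
/-- step B1 -/
theorem add_eigen_singular (h2 : (2 : F) ≠ 0) {T : V →+ V}
    (hA : ∀ a : V, Q a ≠ 0 → ∃ α : F, T a = α • a) (a u : V) (α : F) (ha : Q a ≠ 0)
    (hu : Q u = 0) (hau : polar Q a u = 0) (hα : T a = α • a) : T u = α • u := by
  have h1 : Q (a + u) = Q a := by rw [Q_add_eq, hu, hau]; ring
  have h1' : Q (a - u) = Q a := by
    rw [sub_eq_add_neg, Q_add_eq, QuadraticMap.map_neg, hu, polar_neg_right, hau]; ring
  obtain ⟨β, hβ⟩ := hA (a + u) (by rw [h1]; exact ha)
  obtain ⟨β', hβ'⟩ := hA (a - u) (by rw [h1']; exact ha)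
  have e1 : T u = (β - α) • a + β • u := by
    have : T u = T (a + u) - T a := by rw [map_add]; abel
    rw [this, hβ, hα, smul_add, sub_smul]
    abel
  have e2 : T u = (α - β') • a + β' • u := by
    have : T u = T a - T (a - u) := by rw [map_sub]; abel
    rw [this, hβ', hα, smul_sub, sub_smul]
    abel
  have e3 : (β + β' - 2 * α) • a = (β' - β) • u := by
    have : (β - α) • a + β • u = (α - β') • a + β' • u := e1.symm.trans e2
    have h5 : (β + β' - 2 * α) • a = ((β - α) • a + β • u) - ((α - β') • a + β' • u)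
        + (β' - β) • u := by
      module
    rw [h5, this, sub_self, zero_add]
  have e4 : (β + β' - 2 * α) ^ 2 * Q a = 0 := by
    have := congrArg Q e3
    rw [QuadraticMap.map_smul, QuadraticMap.map_smul, hu] at this
    simp only [smul_eq_mul, mul_zero] at this
    rw [pow_two]
    exact this
  have e5 : β + β' - 2 * α = 0 := by
    rcases mul_eq_zero.1 e4 with h | h
    · exact pow_eq_zero_iff (two_ne_zero) |>.1 h
    · exact absurd h ha
  rw [e5, zero_smul] at e3
  rcases smul_eq_zero.1 e3.symm with h | h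
  · have h6 : β = α := by
      have h7 : β' = β := sub_eq_zero.1 h
      rw [h7] at e5
      have : 2 * (β - α) = 0 := by linear_combination e5
      rcases mul_eq_zero.1 this with h8 | h8
      · exact absurd h8 h2
      · exact sub_eq_zero.1 h8
    rw [e1, h6]
    simp
  · rw [h, map_zero, smul_zero]

/-- an additive map commuting with the commutator subgroup of the orthogonal group is a scalar
(odd characteristic, Witt index at least three). -/
theorem additive_scalar (h2 : (2 : F) ≠ 0) (hQ : (polarBilin Q).Nondegenerate) {e f : Fin 3 → V}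
    (h : Frame3 Q e f) (T : V →+ V)
    (hT : ∀ k ∈ commutator (OG Q), ∀ x, T (k.1 x) = k.1 (T x)) :
    ∃ l : F, ∀ x, T x = l • x := by
  have hA := add_eigen_nonsingular hQ h T hT
  have hp : ∀ i, Q (e i + f i) = 1 := by
    intro i
    have := h.Q_hyp i 1
    rwa [one_smul] at this
  obtain ⟨l, hl⟩ := hA (e 0 + f 0) (by rw [hp]; exact one_ne_zero)
  have he1 : T (e 1) = l • e 1 := by
    apply add_eigen_singular h2 hA (e 0 + f 0) (e 1) l (by rw [hp]; exact one_ne_zero) (h.Qe 1) _ hl
    rw [polar_add_left, h.ee, h.fe]; simp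
  have hf1 : T (f 1) = l • f 1 := by
    apply add_eigen_singular h2 hA (e 0 + f 0) (f 1) l (by rw [hp]; exact one_ne_zero) (h.Qf 1) _ hl
    rw [polar_add_left, h.ef, h.ff]; simp
  have hl1 : T (e 1 + f 1) = l • (e 1 + f 1) := by rw [map_add, he1, hf1, smul_add]
  have he0 : ∀ c : F, T (c • e 0) = l • (c • e 0) := by
    intro c
    apply add_eigen_singular h2 hA (e 1 + f 1) (c • e 0) l (by rw [hp]; exact one_ne_zero)
      (by rw [QuadraticMap.map_smul, h.Qe 0, smul_zero]) _ hl1
    rw [polar_smul_right, polar_add_left, h.ee, h.fe]; simp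
  have hf0 : ∀ c : F, T (c • f 0) = l • (c • f 0) := by
    intro c
    apply add_eigen_singular h2 hA (e 1 + f 1) (c • f 0) l (by rw [hp]; exact one_ne_zero)
      (by rw [QuadraticMap.map_smul, h.Qf 0, smul_zero]) _ hl1
    rw [polar_smul_right, polar_add_left, h.ef, h.ff]; simp
  have he0ne : e 0 ≠ 0 := by
    intro h0
    have := h.ef 0 0
    rw [h0] at this
    simp at this
  refine ⟨l, ?_⟩
  intro x
  set w := x - polar Q x (f 0) • e 0 - polar Q x (e 0) • f 0 with hw
  have hwe : polar Q w (e 0) = 0 := by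
    simp only [hw, polar_sub_left, polar_smul_left, h.ee, h.fe, smul_eq_mul]
    simp
  have hwf : polar Q w (f 0) = 0 := by
    simp only [hw, polar_sub_left, polar_smul_left, h.ef, h.ff, smul_eq_mul]
    simp
  have hzw : T w = l • w := by
    by_cases hQw : Q w = 0
    · apply add_eigen_singular h2 hA (e 0 + f 0) w l (by rw [hp]; exact one_ne_zero) hQw _ hl
      rw [polar_comm, polar_add_right, hwe, hwf, add_zero]
    · obtain ⟨α, hα⟩ := hA w hQw
      have := add_eigen_singular h2 hA w (e 0) α hQw (h.Qe 0) hwe hα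
      have h8 := he0 1
      rw [one_smul] at h8
      rw [h8] at this
      have h6 : (l - α) • e 0 = 0 := by rw [sub_smul, this, sub_self]
      rcases smul_eq_zero.1 h6 with h7 | h7
      · rw [hα, sub_eq_zero.1 h7]
      · exact absurd h7 he0ne
  have hx : x = w + polar Q x (f 0) • e 0 + polar Q x (e 0) • f 0 := by
    rw [hw]; abel
  rw [hx, map_add, map_add, hzw, he0, hf0]
  simp only [smul_add]

end

end Cfsg.Agent.Lib.Helper59.AutO
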