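import Mathlib
import Cfsg.Agent.Lib.Helper59.AutO.Rigid

set_option autoImplicit false

/-!
Bridges to the predicates of `Def_LieTypeDatum`, rigidity, scalars, `O` inside `GO`.
-/

namespace Cfsg.Agent.Lib.Helper59.AutO

open Matrix QuadraticMap
open Cfsg.Agent.Lib.Helper49 Cfsg.Agent.Lib.Helper18.OmegaCenter

variable {ι : Type} [Fintype ι] [DecidableEq ι] {F : Type*} [Field F]

/-- hypotheses for rigidity -/
class Rig (Q : QuadraticForm F (ι → F)) : Prop where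
  nondeg : (polarBilin Q).Nondegenerate
  frame : ∃ e f : Fin 3 → (ι → F), Frame3 Q e f
  center : ∀ z ∈ Subgroup.center ↥(Cfsg.Omega F ⇑Q), z = 1
  card : 2 ≤ Fintype.card ι

variable (Q : QuadraticForm F (ι → F)) [hS : Std Q]

theorem Q_map (σ : F ≃+* F) (v : ι → F) : Q (fun i => σ (v i)) = σ (Q v) := by
  apply mul_left_cancel₀ hS.two_ne
  have h2 : (2 : F) = σ 2 := (map_ofNat σ 2).symm
  conv_rhs => rw [h2, ← map_mul, two_mul_Q]
  rw [two_mul_Q, ← RingEquiv.coe_toRingHom, RingHom.map_dotProduct]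
  congr 1
  funext i
  have := RingHom.map_mulVec (σ : F →+* F) (Bm Q) v i
  rw [hS.map_eq] at this
  exact this.symm

theorem mem_GO_of_semisim {g : GL ι F} {σ : F ≃+* F}
    (h : Cfsg.IsSemisimilarityPair ⇑Q g σ) : g ∈ GO Q := by
  obtain ⟨c, hc⟩ := h
  refine ⟨c, fun v => ?_⟩
  have h1 := hc (fun i => σ.symm (v i))
  rw [Q_map Q σ.symm] at h1
  simpa using h1

theorem eq_of_isInduced {g : GL ι F} (hg : g ∈ GO Q) {σ : F ≃+* F}
    {β : Cfsg.POmega F ⇑Q ≃* Cfsg.POmega F ⇑Q}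
    (h : Cfsg.IsInducedBySemilinearPOmega ⇑Q g σ β) : β = cG Q ⟨g, hg⟩ * fl Q σ := by
  ext x
  obtain ⟨x, rfl⟩ := pm_surjective Q x
  exact h x (resC (cI Q ⟨g, hg⟩) (resC (fldI Q σ) x)) rfl

theorem isInduced_cG_fl (g : ↥(GO Q)) (σ : F ≃+* F) :
    Cfsg.IsInducedBySemilinearPOmega ⇑Q g.1 σ (cG Q g * fl Q σ) := by
  intro s s' h
  show pm Q (resC (cI Q g) (resC (fldI Q σ) s)) = pm Q s'
  congr 1
  exact Subtype.ext (Subtype.ext (Units.ext h.symm))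

theorem eq_fl_of_isField {σ : F ≃+* F} {β : Cfsg.POmega F ⇑Q ≃* Cfsg.POmega F ⇑Q}
    (h : Cfsg.IsFieldAutPOmegaOf ⇑Q σ β) : β = fl Q σ := by
  ext x
  obtain ⟨x, rfl⟩ := pm_surjective Q x
  exact h x (resC (fldI Q σ) x) rfl

theorem fl_refl : fl Q (RingEquiv.refl F) = 1 := map_one (fl Q)

theorem pgo_eq : Cfsg.pgoAut F ⇑Q = (cG Q).range := by
  apply le_antisymm
  · apply (Subgroup.closure_le _).2
    rintro β ⟨g, hg, h⟩
    refine ⟨⟨g, hg⟩, ?_⟩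
    rw [eq_of_isInduced Q hg h, fl_refl, mul_one]
  · rintro _ ⟨g, rfl⟩
    apply Subgroup.subset_closure
    refine ⟨g.1, g.2, ?_⟩
    have := isInduced_cG_fl Q g (RingEquiv.refl F)
    rwa [fl_refl, mul_one] at this

theorem fl_conj_cG (σ : F ≃+* F) (a : ↥(GO Q)) :
    fl Q σ * cG Q a * (fl Q σ)⁻¹ = cG Q (gm Q σ a) := by
  rw [fl_mul_cG, mul_assoc, mul_inv_cancel, mul_one]

theorem normal_of_gamma (h : Cfsg.gammaPOmega F ⇑Q = ⊤) : (cG Q).range.Normal := by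
  have h1 : Cfsg.gammaPOmega F ⇑Q ≤ Subgroup.normalizer ((cG Q).range : Set _) := by
    apply (Subgroup.closure_le _).2
    rintro β ⟨g, σ, hs, hβ⟩
    have hg := mem_GO_of_semisim Q hs
    rw [eq_of_isInduced Q hg hβ]
    rw [SetLike.mem_coe, Subgroup.mem_normalizer_iff]
    intro y
    constructor
    · rintro ⟨a, rfl⟩
      refine ⟨⟨g, hg⟩ * gm Q σ a * ⟨g, hg⟩⁻¹, ?_⟩
      rw [map_mul, map_mul, ← fl_conj_cG, map_inv]
      group
    · rintro ⟨b, hb⟩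
      refine ⟨gm Q σ⁻¹ (⟨g, hg⟩⁻¹ * b * ⟨g, hg⟩), ?_⟩
      rw [← fl_conj_cG, map_mul, map_mul, hb, map_inv, map_inv]
      group
  rw [h] at h1
  exact Subgroup.normalizer_eq_top_iff.1 (top_le_iff.1 h1)

/-- the products `cG g * fl σ` form a subgroup -/
noncomputable def prodSub : Subgroup (MulAut (Cfsg.POmega F ⇑Q)) where
  carrier := {β | ∃ (g : ↥(GO Q)) (σ : F ≃+* F), β = cG Q g * fl Q σ}
  one_mem' := ⟨1, 1, by simp⟩
  mul_mem' := by
    rintro _ _ ⟨g, σ, rfl⟩ ⟨h, τ, rfl⟩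
    refine ⟨g * gm Q σ h, σ * τ, ?_⟩
    rw [map_mul, map_mul]
    calc cG Q g * fl Q σ * (cG Q h * fl Q τ) = cG Q g * (fl Q σ * cG Q h) * fl Q τ := by group
      _ = _ := by rw [fl_mul_cG]; group
  inv_mem' := by
    rintro _ ⟨g, σ, rfl⟩
    refine ⟨gm Q σ⁻¹ g⁻¹, σ⁻¹, ?_⟩
    rw [← fl_mul_cG, map_inv, map_inv, _root_.mul_inv_rev]

theorem exists_of_gamma (h : Cfsg.gammaPOmega F ⇑Q = ⊤) (β : MulAut (Cfsg.POmega F ⇑Q)) :
    ∃ (g : ↥(GO Q)) (σ : F ≃+* F), β = cG Q g * fl Q σ := by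
  have h1 : Cfsg.gammaPOmega F ⇑Q ≤ prodSub Q := by
    apply (Subgroup.closure_le _).2
    rintro β ⟨g, σ, hs, hβ⟩
    exact ⟨⟨g, mem_GO_of_semisim Q hs⟩, σ, eq_of_isInduced Q _ hβ⟩
  rw [h] at h1
  exact h1 (Subgroup.mem_top β)

/-! ### scalars -/

theorem scalar_val (a : Fˣ) :
    (GeneralLinearGroup.scalar ι a : GL ι F).1 = (a : F) • (1 : Matrix ι ι F) := by
  ext i j
  simp [Matrix.one_apply, Matrix.scalar_apply, Matrix.diagonal_apply]

theorem smul_one_mem (a : Fˣ) : (GeneralLinearGroup.scalar ι a : GL ι F) ∈ GO Q := by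
  rw [mem_GO_iff]
  refine ⟨a * a, ?_⟩
  rw [scalar_val]
  simp [smul_smul]

/-- scalar matrices in `GO` -/
noncomputable def scU : Fˣ →* ↥(GO Q) where
  toFun a := ⟨GeneralLinearGroup.scalar ι a, smul_one_mem Q a⟩
  map_one' := Subtype.ext (map_one _)
  map_mul' a b := Subtype.ext (map_mul _ _ _)

theorem scU_val (a : Fˣ) : (scU Q a).1.1 = (a : F) • (1 : Matrix ι ι F) := scalar_val a

/-- scalar matrices in `GO` -/
noncomputable def sc (a : F) (ha : a ≠ 0) : ↥(GO Q) := scU Q (Units.mk0 a ha)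

theorem sc_val (a : F) (ha : a ≠ 0) : (sc Q a ha).1.1 = a • (1 : Matrix ι ι F) :=
  scU_val Q (Units.mk0 a ha)

theorem cI_eq_of_mul {g : ↥(GO Q)} {x y : ↥(OO Q)} (h : y.1.1 * g.1.1 = g.1.1 * x.1.1) :
    cI Q g x = y := by
  apply Subtype.ext
  apply Units.ext
  show g.1.1 * x.1.1 * g.1⁻¹.1 = y.1.1
  rw [← h, Matrix.mul_assoc, Units.mul_inv, Matrix.mul_one]

theorem cI_mul (g : ↥(GO Q)) (x : ↥(OO Q)) : (cI Q g x).1.1 * g.1.1 = g.1.1 * x.1.1 := by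
  show g.1.1 * x.1.1 * g.1⁻¹.1 * g.1.1 = _
  rw [Matrix.mul_assoc, Units.inv_mul, Matrix.mul_one]

theorem cG_eq_one_of_smul {g : ↥(GO Q)} {a : F} (h : g.1.1 = a • (1 : Matrix ι ι F)) :
    cG Q g = 1 := by
  have : cIHom Q g = 1 := by
    ext x : 1
    apply cI_eq_of_mul
    rw [h]
    simp
  show indC (cIHom Q g) = 1
  rw [this, map_one]

theorem cG_scU (a : Fˣ) : cG Q (scU Q a) = 1 := cG_eq_one_of_smul Q (scU_val Q a)

theorem cG_sc (a : F) (ha : a ≠ 0) : cG Q (sc Q a ha) = 1 := cG_eq_one_of_smul Q (sc_val Q a ha)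

theorem mu_scU (a : Fˣ) : mu Q (scU Q a) = a * a := by
  apply mu_eq
  rw [scU_val]
  simp [smul_smul]

theorem mu_sc (a : F) (ha : a ≠ 0) : (mu Q (sc Q a ha) : F) = a * a := by
  show (mu Q (scU Q (Units.mk0 a ha)) : F) = _
  rw [mu_scU]
  rfl

theorem sc_mul_val (c : F) (hc : c ≠ 0) (g : ↥(GO Q)) : (sc Q c hc * g).1.1 = c • g.1.1 := by
  show (sc Q c hc).1.1 * g.1.1 = _
  rw [sc_val, Matrix.smul_mul, Matrix.one_mul]

theorem scU_mul_val (c : Fˣ) (g : ↥(GO Q)) : (scU Q c * g).1.1 = (c : F) • g.1.1 := by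
  show (scU Q c).1.1 * g.1.1 = _
  rw [scU_val, Matrix.smul_mul, Matrix.one_mul]

/-! ### `O` inside `GO` -/

theorem OO_le_GO : OO Q ≤ GO Q := by
  intro g hg
  rw [mem_GO_iff]
  exact ⟨1, by rw [(mem_OO_iff Q).1 hg, Units.val_one, one_smul]⟩

/-- `O → GO` -/
def ofO : ↥(OO Q) →* ↥(GO Q) := Subgroup.inclusion (OO_le_GO Q)

theorem ofO_val (x : ↥(OO Q)) : (ofO Q x).1 = x.1 := rfl

theorem mu_ofO (x : ↥(OO Q)) : mu Q (ofO Q x) = 1 := by
  apply mu_eq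
  rw [ofO_val, (mem_OO_iff Q).1 x.2, Units.val_one, one_smul]

theorem cIHom_ofO (y : ↥(OO Q)) : cIHom Q (ofO Q y) = MulAut.conj y := by
  ext x : 1
  rfl

theorem cG_ofO (y : ↥(Cfsg.Omega F ⇑Q)) : cG Q (ofO Q y.1) = MulAut.conj (pm Q y) := by
  show indC (cIHom Q (ofO Q y.1)) = _
  rw [cIHom_ofO, indC_conj]

theorem exists_ofO_of_mu (g : ↥(GO Q)) (h : mu Q g = 1) : ∃ x, g = ofO Q x := by
  have h1 := mu_spec Q g
  rw [h, Units.val_one, one_smul] at h1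
  exact ⟨⟨g.1, (mem_OO_iff Q).2 h1⟩, rfl⟩

/-! ### rigidity -/

variable [hR : Rig Q]

theorem pm_inj {x y : ↥(Cfsg.Omega F ⇑Q)} (h : pm Q x = pm Q y) : x = y := by
  rw [QuotientGroup.eq] at h
  have := hR.center _ h
  exact (inv_mul_eq_one.1 this)

theorem rigid_mat [Finite F] (T : (ι → F) →+ (ι → F))
    (hT : ∀ (x : ↥(Cfsg.Omega F ⇑Q)) (v : ι → F), T (x.1.1.1 *ᵥ v) = x.1.1.1 *ᵥ T v) :
    ∃ l : F, ∀ v, T v = l • v := by
  obtain ⟨e, f, hf⟩ := hR.frame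
  apply additive_scalar hS.two_ne hR.nondeg hf T
  intro k hk v
  obtain ⟨k', rfl⟩ := (isoEquiv Q).surjective k
  have hk' : k' ∈ Cfsg.Omega F ⇑Q := (mem_Omega_iff Q k').2 hk
  exact hT ⟨k', hk'⟩ v

theorem rigid [Finite F] (g : ↥(GO Q)) (σ : F ≃+* F) (h : cG Q g * fl Q σ = 1) :
    σ = 1 ∧ ∃ a : F, a ≠ 0 ∧ g.1.1 = a • (1 : Matrix ι ι F) := by
  let T : (ι → F) →+ (ι → F) :=
    { toFun := fun v => g.1.1 *ᵥ (fun i => σ (v i))
      map_zero' := by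
        have : (fun i => σ ((0 : ι → F) i)) = 0 := by funext i; simp
        rw [this, Matrix.mulVec_zero]
      map_add' := fun u v => by
        have : (fun i => σ ((u + v) i)) = (fun i => σ (u i)) + (fun i => σ (v i)) := by
          funext i; simp
        rw [this, Matrix.mulVec_add] }
  have hTv : ∀ v, T v = g.1.1 *ᵥ (fun i => σ (v i)) := fun v => rfl
  have hcomm : ∀ (x : ↥(Cfsg.Omega F ⇑Q)), x.1.1.1 * g.1.1 = g.1.1 * x.1.1.1.map σ := by
    intro x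
    have h1 : pm Q (resC (cI Q g) (resC (fldI Q σ) x)) = pm Q x := by
      have := congrArg (fun β : MulAut (Cfsg.POmega F ⇑Q) => β (pm Q x)) h
      exact this
    have h2 := pm_inj Q h1
    have h3 := cI_mul Q g (fldI Q σ x.1)
    have h4 : cI Q g (fldI Q σ x.1) = x.1 := congrArg Subtype.val h2
    rw [h4] at h3
    exact h3
  obtain ⟨l, hl⟩ := rigid_mat Q T (by
    intro x v
    rw [hTv, hTv, Matrix.mulVec_mulVec, hcomm x, ← Matrix.mulVec_mulVec]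
    congr 1
    funext i
    exact (RingHom.map_mulVec (σ : F →+* F) x.1.1.1 v i))
  obtain ⟨i₀⟩ := hS.ne
  have hl0 : l ≠ 0 := by
    rintro rfl
    have h1 := hl (Pi.single i₀ 1)
    rw [zero_smul, hTv] at h1
    have h2 : g.1⁻¹.1 *ᵥ (g.1.1 *ᵥ fun i => σ ((Pi.single i₀ 1 : ι → F) i)) = 0 := by
      rw [h1, Matrix.mulVec_zero]
    rw [Matrix.mulVec_mulVec, Units.inv_mul, Matrix.one_mulVec] at h2
    have h3 := congrFun h2 i₀
    simp at h3
  have hσ : σ = 1 := by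
    ext c
    have h1 := hl (c • Pi.single i₀ 1)
    have h2 := hl (Pi.single i₀ 1)
    rw [hTv] at h1 h2
    have h3 : (fun i => σ ((c • (Pi.single i₀ 1 : ι → F)) i)) =
        σ c • (fun i => σ ((Pi.single i₀ 1 : ι → F) i)) := by
      funext i; simp
    rw [h3, Matrix.mulVec_smul, h2] at h1
    have h4 := congrFun h1 i₀
    simp only [Pi.smul_apply, Pi.single_eq_same, smul_eq_mul, mul_one] at h4
    have h5 : l * σ c = l * c := by rw [← h4, mul_comm]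
    exact mul_left_cancel₀ hl0 h5
  refine ⟨hσ, l, hl0, ?_⟩
  rw [Matrix.ext_iff_mulVec]
  intro v
  have := hl v
  rw [hTv, hσ] at this
  rw [Matrix.smul_mulVec, Matrix.one_mulVec, ← this]
  rfl

theorem exists_smul_of_cG_eq_one [Finite F] {g : ↥(GO Q)} (h : cG Q g = 1) :
    ∃ a : F, a ≠ 0 ∧ g.1.1 = a • (1 : Matrix ι ι F) :=
  (rigid Q g 1 (by rw [map_one, mul_one, h])).2

theorem fl_injective [Finite F] : Function.Injective (fl Q) := by
  rw [injective_iff_map_eq_one]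
  intro σ hσ
  exact (rigid Q 1 σ (by rw [map_one, one_mul, hσ])).1

theorem eq_one_of_cG_eq_fl [Finite F] (g : ↥(GO Q)) (σ : F ≃+* F) (h : cG Q g = fl Q σ) :
    σ = 1 := by
  have := (rigid Q g σ⁻¹ (by rw [map_inv, h, mul_inv_cancel])).1
  exact inv_eq_one.1 this

theorem ker_cG [Finite F] : (cG Q).ker = (scU Q).range := by
  ext g
  rw [MonoidHom.mem_ker]
  constructor
  · intro h
    obtain ⟨a, ha, h1⟩ := exists_smul_of_cG_eq_one Q h
    refine ⟨Units.mk0 a ha, ?_⟩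
    apply Subtype.ext
    apply Units.ext
    rw [scU_val, h1]
    rfl
  · rintro ⟨c, rfl⟩
    exact cG_scU Q c

end Cfsg.Agent.Lib.Helper59.AutO
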