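import Mathlib
import Cfsg.Agent.Lib.Helper59.AutO.Bridge
import Cfsg.Agent.Lib.Helper18.AutPSL.H90
import Cfsg.Agent.Lib.Helper18.SymmClass

set_option autoImplicit false

/-!
The Lang step for `GO` in odd dimension: elements of order `r` in the coset of a field
automorphism of order `r` of `PΩ_{2m+1}(q)` are conjugate to it under the image of `GO`.
-/

namespace Cfsg.Agent.Lib.Helper59.AutO

open Matrix QuadraticMap
open Cfsg.Agent.Lib.Helper18.AutPSL (mp mp_apply mp_eq_map mp_one mp_smul nrm nrm_zero nrm_succ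
  nrm_succ' nrm_smul nrmS nrmS_zero nrmS_succ hilbert90 hilbert90_one nrmS_surj)

variable {ι : Type} [Fintype ι] [DecidableEq ι] {F : Type*} [Field F]

/-- the dimension is odd -/
class OddDim (ι : Type) [Fintype ι] : Prop where
  odd : Fintype.card ι = 2 * (Fintype.card ι / 2) + 1

/-- in odd dimension over a finite field of odd characteristic, two non-degenerate symmetric
matrices are congruent up to a scalar -/
theorem exists_congr_B {k : Type*} [Field k] [Finite k] (h2 : (2 : k) ≠ 0) [hO : OddDim ι]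
    (B₀ M : Matrix ι ι k) (hB₀s : B₀ᵀ = B₀) (hB₀ : B₀.det ≠ 0) (hMs : Mᵀ = M) (hM : M.det ≠ 0) :
    ∃ (a : Matrix ι ι k) (c : k), a.det ≠ 0 ∧ c ≠ 0 ∧ aᵀ * M * a = c • B₀ := by
  obtain ⟨m, hm⟩ : ∃ m, Fintype.card ι = 2 * m + 1 := ⟨_, hO.odd⟩
  obtain ⟨c, hcdef⟩ : ∃ c, c = M.det / B₀.det := ⟨_, rfl⟩
  have hc0 : c ≠ 0 := by rw [hcdef]; exact div_ne_zero hM hB₀
  have hdet : (c • B₀).det = M.det * (c ^ m) ^ 2 := by
    have h1 : M.det = c * B₀.det := by rw [hcdef]; field_simp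
    rw [Matrix.det_smul, hm, h1]
    ring
  have hdet0 : (c • B₀).det ≠ 0 := by
    rw [hdet]
    exact mul_ne_zero hM (pow_ne_zero _ (pow_ne_zero _ hc0))
  have hfr : Module.finrank k (ι → k) = 2 * m + 1 := by
    rw [Module.finrank_fintype_fun_eq_card, hm]
  obtain ⟨φ, hφ⟩ := Cfsg.Agent.Lib.Helper18.exists_isometry_of_hasDisc h2
    (Matrix.toBilin' (c • B₀)) (Matrix.toBilin' M)
    (isSymm_toBilin'_iff_isSymm.mpr (by
      show (c • B₀)ᵀ = c • B₀
      rw [transpose_smul, hB₀s]))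
    (isSymm_toBilin'_iff_isSymm.mpr hMs)
    (LinearMap.BilinForm.nondegenerate_toBilin'_of_det_ne_zero' _ hdet0)
    (LinearMap.BilinForm.nondegenerate_toBilin'_of_det_ne_zero' _ hM) hfr hfr (δ := M.det)
    (Cfsg.Agent.Lib.Helper18.hasDisc_of_basis _ (Pi.basisFun k ι) (s := c ^ m)
      (pow_ne_zero _ hc0) (by
        rw [LinearMap.BilinForm.toMatrix_basisFun, LinearMap.BilinForm.toMatrix'_toBilin', hdet]))
    (Cfsg.Agent.Lib.Helper18.hasDisc_of_basis _ (Pi.basisFun k ι) (s := 1) one_ne_zero (by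
        rw [LinearMap.BilinForm.toMatrix_basisFun, LinearMap.BilinForm.toMatrix'_toBilin']
        ring))
  have ha : (LinearMap.toMatrix' (φ : (ι → k) →ₗ[k] (ι → k)))ᵀ * M *
      LinearMap.toMatrix' (φ : (ι → k) →ₗ[k] (ι → k)) = c • B₀ := by
    apply eq_of_forall_dot
    intro u v
    have := hφ u v
    rw [Matrix.toBilin'_apply', Matrix.toBilin'_apply'] at this
    rw [← dot_conj, LinearMap.toMatrix'_mulVec, LinearMap.toMatrix'_mulVec]
    exact this
  refine ⟨_, c, ?_, hc0, ha⟩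
  intro h0
  have h1 := congrArg det ha
  rw [det_mul, h0, mul_zero] at h1
  exact hdet0 h1.symm

theorem mp_transpose (σ : F ≃+* F) (M : Matrix ι ι F) : mp σ Mᵀ = (mp σ M)ᵀ := rfl

variable (Q : QuadraticForm F (ι → F)) [hS : Std Q]

theorem mp_B (σ : F ≃+* F) : mp σ (Bm Q) = Bm Q := hS.map_eq (σ : F →+* F)

/-- descent of a `σ`-fixed symmetric matrix -/
theorem exists_fixed_congr [Finite F] [OddDim ι] (σ : F ≃+* F) (K : Matrix ι ι F)
    (hfix : mp σ K = K) (hsymm : Kᵀ = K) (hdet : K.det ≠ 0) :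
    ∃ (a : Matrix ι ι F) (c : F),
      a.det ≠ 0 ∧ c ≠ 0 ∧ mp σ a = a ∧ σ c = c ∧ aᵀ * K * a = c • Bm Q := by
  let F₀ : Subfield F := RingHom.eqLocusField (σ : F →+* F) (RingHom.id F)
  let j : F₀ →+* F := F₀.subtype
  let M₀ : Matrix ι ι F₀ := fun i k => ⟨K i k, congrFun (congrFun hfix i) k⟩
  let B₀ : Matrix ι ι F₀ := fun i k => ⟨Bm Q i k, congrFun (congrFun (mp_B Q σ) i) k⟩
  have hM : M₀.map j = K := rfl
  have hB : B₀.map j = Bm Q := rfl
  have hinj : Function.Injective (fun M : Matrix ι ι F₀ => M.map j) :=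
    Matrix.map_injective j.injective
  have hdetne : ∀ N : Matrix ι ι F₀, (N.map j).det ≠ 0 → N.det ≠ 0 := by
    intro N hN h0
    apply hN
    have := RingHom.map_det j N
    rw [h0, map_zero] at this
    exact this.symm
  have h2 : (2 : F₀) ≠ 0 := by
    intro h0
    apply hS.two_ne
    have := congrArg j h0
    rwa [map_ofNat, map_zero] at this
  obtain ⟨a₀, c₀, ha₀, hc₀, ha₁⟩ := exists_congr_B h2 B₀ M₀
    (hinj (by
      show (B₀ᵀ).map j = B₀.map j
      rw [transpose_map, hB, Bm_transpose]))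
    (hdetne _ (by rw [hB]; exact hS.det_ne))
    (hinj (by
      show (M₀ᵀ).map j = M₀.map j
      rw [transpose_map, hM, hsymm]))
    (hdetne _ (by rw [hM]; exact hdet))
  refine ⟨a₀.map j, j c₀, ?_, ?_, ?_, c₀.2, ?_⟩
  · intro h0
    apply ha₀
    apply j.injective
    rw [map_zero, RingHom.map_det]
    exact h0
  · intro h0
    apply hc₀
    apply j.injective
    rw [h0, map_zero]
  · ext i k
    exact (a₀ i k).2
  · rw [← hM, ← transpose_map, ← Matrix.map_mul, ← Matrix.map_mul, ha₁, ← hB]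
    ext i k
    simp

/-! ### powers -/

/-- partial norms in `GO` -/
noncomputable def nrmG (σ : F ≃+* F) (g : ↥(GO Q)) : ℕ → ↥(GO Q)
  | 0 => 1
  | k + 1 => g * gm Q σ (nrmG σ g k)

theorem nrmG_val (σ : F ≃+* F) (g : ↥(GO Q)) (k : ℕ) :
    (nrmG Q σ g k).1.1 = nrm σ g.1.1 k := by
  induction k with
  | zero => rfl
  | succ k ih =>
    show g.1.1 * (gm Q σ (nrmG Q σ g k)).1.1 = _
    rw [gmap_val, ih, nrm_succ]
    rfl

theorem mu_nrmG (σ : F ≃+* F) (g : ↥(GO Q)) (k : ℕ) :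
    (mu Q (nrmG Q σ g k) : F) = nrmS σ (mu Q g : F) k := by
  induction k with
  | zero =>
    show (mu Q (1 : ↥(GO Q)) : F) = 1
    rw [map_one, Units.val_one]
  | succ k ih =>
    show (mu Q (g * gm Q σ (nrmG Q σ g k)) : F) = _
    rw [map_mul, Units.val_mul, mu_gmap, ih, nrmS_succ]
    rfl

theorem pow_cG_fl (g : ↥(GO Q)) (σ : F ≃+* F) (k : ℕ) :
    (cG Q g * fl Q σ) ^ k = cG Q (nrmG Q σ g k) * fl Q (σ ^ k) := by
  induction k with
  | zero => simp [nrmG]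
  | succ k ih =>
    rw [pow_succ', ih, pow_succ', map_mul]
    show _ = cG Q (g * gm Q σ (nrmG Q σ g k)) * _
    rw [map_mul]
    calc cG Q g * fl Q σ * (cG Q (nrmG Q σ g k) * fl Q (σ ^ k))
        = cG Q g * (fl Q σ * cG Q (nrmG Q σ g k)) * fl Q (σ ^ k) := by simp only [mul_assoc]
      _ = _ := by rw [fl_mul_cG]; simp only [mul_assoc]

omit [Fintype ι] in
theorem eq_of_smul_eq_smul_GL [Fintype ι] [Nonempty ι] (g : GL ι F) {a b : F}
    (h : a • g.1 = b • g.1) : a = b := by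
  have h1 := congrArg (fun M => M * g⁻¹.1) h
  simp only [Matrix.smul_mul, Units.mul_inv] at h1
  obtain ⟨i⟩ := (inferInstance : Nonempty ι)
  have h2 := congrFun (congrFun h1 i) i
  simpa using h2

theorem det_GL_ne_zero (g : GL ι F) : g.1.det ≠ 0 := by
  have := g.det.ne_zero
  simpa using this

/-- the Lang step -/
theorem exists_GO_of_nrm [Finite F] [OddDim ι] (g : ↥(GO Q)) (σ : F ≃+* F) (r : ℕ)
    (hr0 : 0 < r) (hr : orderOf σ = r) (hN : nrm σ g.1.1 r = 1) :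
    ∃ B : ↥(GO Q), g * gm Q σ B = B := by
  obtain ⟨b, hb, hb2⟩ := hilbert90 σ g.1.1 r hr0 hr hN
  have hc : nrmS σ (mu Q g : F) r = 1 := by
    rw [← mu_nrmG]
    have h1 : nrmG Q σ g r = 1 := Subtype.ext (Units.ext (by rw [nrmG_val, hN]; rfl))
    rw [h1, map_one, Units.val_one]
  obtain ⟨d, hd0, hd⟩ := hilbert90_one σ (mu Q g : F) r hr0 hr hc
  have hσd : σ d ≠ 0 := by simpa using hd0
  have hK : bᵀ * Bm Q * b = (mu Q g : F) • mp σ (bᵀ * Bm Q * b) := by
    conv_lhs => rw [← hb2]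
    calc (g.1.1 * mp σ b)ᵀ * Bm Q * (g.1.1 * mp σ b)
        = (mp σ b)ᵀ * (g.1.1ᵀ * Bm Q * g.1.1) * mp σ b := by
          simp only [transpose_mul, Matrix.mul_assoc]
      _ = (mu Q g : F) • ((mp σ b)ᵀ * Bm Q * mp σ b) := by
          rw [mu_spec Q, Matrix.mul_smul, Matrix.smul_mul]
      _ = _ := by rw [map_mul, map_mul, mp_transpose, mp_B]
  have hfix : mp σ (d⁻¹ • (bᵀ * Bm Q * b)) = d⁻¹ • (bᵀ * Bm Q * b) := by
    rw [mp_smul]
    conv_rhs => rw [hK, smul_smul]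
    congr 1
    rw [map_inv₀]
    field_simp
    rw [mul_comm]
    exact hd.symm
  obtain ⟨a, c, ha, hc0, haσ, -, haJ⟩ := exists_fixed_congr Q σ (d⁻¹ • (bᵀ * Bm Q * b)) hfix
    (by
      rw [transpose_smul, transpose_mul, transpose_mul, transpose_transpose, Bm_transpose,
        Matrix.mul_assoc])
    (by
      rw [Matrix.det_smul, det_mul, det_mul, det_transpose]
      exact mul_ne_zero (pow_ne_zero _ (inv_ne_zero hd0))
        (mul_ne_zero (mul_ne_zero hb hS.det_ne) hb))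
  have hdet : (b * a).det ≠ 0 := by
    rw [det_mul]
    exact mul_ne_zero hb ha
  have hJ : (b * a)ᵀ * Bm Q * (b * a) = (d * c) • Bm Q := by
    rw [mul_smul, ← haJ, Matrix.mul_smul, Matrix.smul_mul, smul_smul, mul_inv_cancel₀ hd0,
      one_smul]
    simp only [transpose_mul, Matrix.mul_assoc]
  refine ⟨⟨GeneralLinearGroup.mkOfDetNeZero (b * a) hdet,
    (mem_GO_iff Q).2 ⟨Units.mk0 (d * c) (mul_ne_zero hd0 hc0), hJ⟩⟩, ?_⟩
  apply Subtype.ext
  apply Units.ext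
  show g.1.1 * mp σ (b * a) = b * a
  rw [map_mul, haσ, ← Matrix.mul_assoc, hb2]

theorem field_core [Finite F] [OddDim ι] [Rig Q] (g : ↥(GO Q)) (σ : F ≃+* F) (r : ℕ)
    (hr0 : 0 < r) (hr : orderOf σ = r) (h : (cG Q g * fl Q σ) ^ r = 1) :
    ∃ b : ↥(GO Q), cG Q g * fl Q σ = cG Q b * fl Q σ * (cG Q b)⁻¹ := by
  have hne : Nonempty ι := hS.ne
  have hσ : σ ^ r = 1 := by rw [← hr]; exact pow_orderOf_eq_one σ
  rw [pow_cG_fl, hσ, map_one, mul_one] at h
  obtain ⟨lam, h0, hl⟩ := exists_smul_of_cG_eq_one Q h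
  have hN : nrm σ g.1.1 r = lam • 1 := by rw [← nrmG_val, hl]
  have hfix : σ lam = lam := by
    have h1 := nrm_succ σ g.1.1 r
    rw [nrm_succ', hσ, mp_one, hN, mp_smul, map_one, Matrix.smul_mul, Matrix.one_mul,
      Matrix.mul_smul, Matrix.mul_one] at h1
    exact (eq_of_smul_eq_smul_GL g.1 h1).symm
  obtain ⟨μ, hμ0, hμ⟩ := nrmS_surj σ r hr0 hr lam⁻¹ (inv_ne_zero h0) (by rw [map_inv₀, hfix])
  obtain ⟨B, e⟩ := exists_GO_of_nrm Q (sc Q μ hμ0 * g) σ r hr0 hr (by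
    rw [sc_mul_val, nrm_smul, hμ, hN, smul_smul, inv_mul_cancel₀ h0, one_smul])
  have e2 : cG Q B = cG Q g * cG Q (gm Q σ B) := by
    conv_lhs => rw [← e]
    rw [map_mul, map_mul, cG_sc, one_mul]
  have e3 := fl_mul_cG Q σ B
  refine ⟨B, ?_⟩
  calc cG Q g * fl Q σ = cG Q g * (fl Q σ * cG Q B) * (cG Q B)⁻¹ := by group
    _ = cG Q g * (cG Q (gm Q σ B) * fl Q σ) * (cG Q B)⁻¹ := by rw [e3]
    _ = (cG Q g * cG Q (gm Q σ B)) * fl Q σ * (cG Q B)⁻¹ := by group
    _ = _ := by rw [← e2]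

end Cfsg.Agent.Lib.Helper59.AutO
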