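import Mathlib
import Cfsg.Agent.Lib.Helper59.AutO.Lang
import Cfsg.Agent.Lib.Helper18.OrthOmega

set_option autoImplicit false

/-!
The character of `GO_{2m+1}(q)` with kernel `F^× Ω`, inner automorphisms, base change.
-/

namespace Cfsg.Agent.Lib.Helper59.AutO

open Matrix QuadraticMap
open Cfsg.Agent.Lib.Helper18 (refl sgn reflSet closure_reflSet_eq_top)

variable {ι : Type} [Fintype ι] [DecidableEq ι] {F : Type*} [Field F]
variable (Q : QuadraticForm F (ι → F)) [hS : Std Q]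

theorem scU_comm (a : Fˣ) (g : ↥(GO Q)) : scU Q a * g = g * scU Q a := by
  apply Subtype.ext
  apply Units.ext
  show (scU Q a).1.1 * g.1.1 = g.1.1 * (scU Q a).1.1
  rw [scU_val]
  simp

/-- `det g / μ(g)^m` -/
noncomputable def dd : ↥(GO Q) →* Fˣ where
  toFun g := GeneralLinearGroup.det g.1 * ((mu Q g) ^ (Fintype.card ι / 2))⁻¹
  map_one' := by simp
  map_mul' a b := by
    rw [Subgroup.coe_mul, map_mul, map_mul, mul_pow, mul_inv]
    exact mul_mul_mul_comm _ _ _ _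

theorem dd_apply (g : ↥(GO Q)) :
    dd Q g = GeneralLinearGroup.det g.1 * ((mu Q g) ^ (Fintype.card ι / 2))⁻¹ := rfl

theorem det_sq (g : ↥(GO Q)) :
    (GeneralLinearGroup.det g.1) ^ 2 = (mu Q g) ^ (Fintype.card ι) := by
  apply Units.ext
  have h := congrArg det (mu_spec Q g)
  rw [det_mul, det_mul, det_transpose, det_smul] at h
  have h1 : g.1.1.det ^ 2 * (Bm Q).det = (mu Q g : F) ^ Fintype.card ι * (Bm Q).det := by
    rw [← h]; ring
  exact mul_right_cancel₀ hS.det_ne h1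

theorem mem_OO_of_mu {g : ↥(GO Q)} (h : mu Q g = 1) : g.1 ∈ OO Q := by
  have h1 := mu_spec Q g
  rw [h, Units.val_one, one_smul] at h1
  exact (mem_OO_iff Q).2 h1

theorem det_scU (a : Fˣ) : GeneralLinearGroup.det (scU Q a).1 = a ^ Fintype.card ι := by
  apply Units.ext
  show (scU Q a).1.1.det = _
  rw [scU_val, det_smul, det_one, mul_one]
  rfl

section odd

variable [hO : OddDim ι]

theorem dd_sq (g : ↥(GO Q)) : dd Q g ^ 2 = mu Q g := by
  obtain ⟨m, hm⟩ : ∃ m, m = Fintype.card ι / 2 := ⟨_, rfl⟩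
  have hn : Fintype.card ι = 2 * m + 1 := by rw [hm]; exact hO.odd
  rw [dd_apply, mul_pow, det_sq, ← hm, hn, inv_pow, ← pow_mul, mul_comm m 2, pow_succ]
  group

theorem dd_pow_card (g : ↥(GO Q)) : dd Q g ^ Fintype.card ι = GeneralLinearGroup.det g.1 := by
  obtain ⟨m, hm⟩ : ∃ m, m = Fintype.card ι / 2 := ⟨_, rfl⟩
  have hn : Fintype.card ι = 2 * m + 1 := by rw [hm]; exact hO.odd
  rw [hn, pow_succ, pow_mul, dd_sq, dd_apply, ← hm]
  rw [mul_comm (GeneralLinearGroup.det g.1), ← mul_assoc, mul_inv_cancel, one_mul]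

theorem mu_nz (g : ↥(GO Q)) : mu Q (scU Q (dd Q g)⁻¹ * g) = 1 := by
  rw [map_mul, mu_scU, ← dd_sq, pow_two]
  group

/-- the projection of `GO` onto `SO` -/
noncomputable def prj : ↥(GO Q) →* ↥(OO Q) where
  toFun g := ⟨(scU Q (dd Q g)⁻¹ * g).1, mem_OO_of_mu Q (mu_nz Q g)⟩
  map_one' := by
    apply Subtype.ext
    show (scU Q (dd Q 1)⁻¹ * 1 : ↥(GO Q)).1 = 1
    rw [map_one, inv_one, map_one, mul_one]
    rfl
  map_mul' a b := by
    apply Subtype.ext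
    have : scU Q (dd Q (a * b))⁻¹ * (a * b) =
        (scU Q (dd Q a)⁻¹ * a) * (scU Q (dd Q b)⁻¹ * b) := by
      rw [map_mul, mul_inv, map_mul]
      calc scU Q (dd Q a)⁻¹ * scU Q (dd Q b)⁻¹ * (a * b)
          = scU Q (dd Q a)⁻¹ * (scU Q (dd Q b)⁻¹ * a) * b := by group
        _ = scU Q (dd Q a)⁻¹ * (a * scU Q (dd Q b)⁻¹) * b := by
            rw [scU_comm Q (dd Q b)⁻¹ a]
        _ = _ := by group
    show (scU Q (dd Q (a * b))⁻¹ * (a * b)).1 =
      (scU Q (dd Q a)⁻¹ * a).1 * (scU Q (dd Q b)⁻¹ * b).1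
    rw [this]
    rfl

theorem ofO_prj (g : ↥(GO Q)) : ofO Q (prj Q g) = scU Q (dd Q g)⁻¹ * g := rfl

theorem eq_scU_mul_prj (g : ↥(GO Q)) : g = scU Q (dd Q g) * ofO Q (prj Q g) := by
  rw [ofO_prj, ← mul_assoc, ← map_mul, mul_inv_cancel, map_one, one_mul]

theorem det_prj (g : ↥(GO Q)) : GeneralLinearGroup.det (prj Q g).1 = 1 := by
  show GeneralLinearGroup.det ((scU Q (dd Q g)⁻¹).1 * g.1) = 1
  rw [map_mul, det_scU, inv_pow, dd_pow_card, inv_mul_cancel]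

theorem dd_scU (a : Fˣ) : dd Q (scU Q a) = a := by
  obtain ⟨m, hm⟩ : ∃ m, m = Fintype.card ι / 2 := ⟨_, rfl⟩
  have hn : Fintype.card ι = 2 * m + 1 := by rw [hm]; exact hO.odd
  rw [dd_apply, det_scU, mu_scU, ← hm, hn, ← pow_two, ← pow_mul, pow_succ]
  group

theorem prj_scU (a : Fˣ) : prj Q (scU Q a) = 1 := by
  apply Subtype.ext
  show (scU Q (dd Q (scU Q a))⁻¹ * scU Q a).1 = 1
  rw [dd_scU, ← map_mul, inv_mul_cancel, map_one]
  rfl

theorem dd_ofO (x : ↥(OO Q)) : dd Q (ofO Q x) = GeneralLinearGroup.det x.1 := by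
  rw [dd_apply, mu_ofO, one_pow, inv_one, mul_one]
  rfl

theorem prj_ofO (x : ↥(OO Q)) (h : GeneralLinearGroup.det x.1 = 1) : prj Q (ofO Q x) = x := by
  apply Subtype.ext
  show (scU Q (dd Q (ofO Q x))⁻¹ * ofO Q x).1 = x.1
  rw [dd_ofO, h, inv_one, map_one, one_mul]
  rfl

end odd

/-! ### characters -/

section char

variable [Fintype F] [hR : Rig Q]

theorem hom_eq_det (ψ : ↥(OO Q) →* ℤˣ) (h : ∀ v, Q v ≠ 0 → ψ (refl Q v) = -1) (x : ↥(OO Q)) :
    (((ψ x : ℤˣ) : ℤ) : F) = x.1.1.det := by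
  let φ₁ : ↥(OO Q) →* Fˣ := (Units.map (Int.castRingHom F : ℤ →* F)).comp ψ
  let φ₂ : ↥(OO Q) →* Fˣ := GeneralLinearGroup.det.comp (OO Q).subtype
  have : φ₁ = φ₂ := by
    apply MonoidHom.eq_of_eqOn_dense (closure_reflSet_eq_top Q hS.two_ne hR.nondeg)
    rintro _ ⟨v, hv, rfl⟩
    apply Units.ext
    show (((ψ (refl Q v) : ℤˣ) : ℤ) : F) = (Cfsg.reflectionMatrix ⇑Q v).det
    rw [h v hv, Cfsg.Agent.Lib.Helper18.det_reflectionMatrix Q hv]
    simp
  exact congrArg (fun φ : ↥(OO Q) →* Fˣ => ((φ x : Fˣ) : F)) this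

theorem sgn1_sq {v : ι → F} (hv : Q v ≠ 0) (h : IsSquare (Q v)) : sgn ⇑Q 1 (refl Q v) = -1 := by
  obtain ⟨t, ht⟩ := h
  have ht0 : t ≠ 0 := by
    rintro rfl
    apply hv
    rw [ht, mul_zero]
  apply Cfsg.Agent.Lib.Helper18.sgn_refl_of_sq Q hS.two_ne one_ne_zero hv (t := t⁻¹)
  rw [ht]
  field_simp

theorem sgn1_nonsq {v : ι → F} (h : ¬ IsSquare (Q v)) : sgn ⇑Q 1 (refl Q v) = 1 := by
  have hv : Q v ≠ 0 := by
    intro h0
    apply h
    rw [h0]
    exact IsSquare.zero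
  apply Cfsg.Agent.Lib.Helper18.sgn_refl_of_not_sq Q hS.two_ne one_ne_zero hv
  intro t ht
  apply h
  have ht0 : t ≠ 0 := by
    rintro rfl
    simp at ht
  refine ⟨t⁻¹, ?_⟩
  field_simp
  linear_combination -ht

theorem mem_Omega_of (x : ↥(OO Q)) (hdet : x.1.1.det = 1) (hs : sgn ⇑Q 1 x = 1) :
    x ∈ Cfsg.Omega F ⇑Q := by
  obtain ⟨δ, hδ⟩ := FiniteField.exists_nonsquare
    (Cfsg.Agent.Lib.Helper18.ringChar_ne_two hS.two_ne)
  show x ∈ commutator ↥(Cfsg.isometryGroup F ⇑Q)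
  rw [Cfsg.Agent.Lib.Helper18.commutator_eq_ker Q hS.two_ne hR.nondeg hR.card hδ,
    MonoidHom.mem_ker, MonoidHom.prod_apply, Prod.mk_eq_one]
  refine ⟨hs, ?_⟩
  have h1 := hom_eq_det Q (sgn ⇑Q 1 * sgn ⇑Q δ) (by
    intro v hv
    rw [MonoidHom.mul_apply]
    rcases Cfsg.Agent.Lib.Helper18.sq_or_nonsq hS.two_ne hδ hv with ⟨s, hs⟩ | ⟨s, hs⟩
    · have hs0 : s ≠ 0 := by
        rintro rfl
        apply hv; rw [hs]; simp
      obtain ⟨e1, e2⟩ := Cfsg.Agent.Lib.Helper18.sgn_pair_refl_sq Q hS.two_ne hδ hs0 hs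
      rw [e1, e2, mul_one]
    · have hs0 : s ≠ 0 := by
        rintro rfl
        apply hv; rw [hs]; simp
      obtain ⟨e1, e2⟩ := Cfsg.Agent.Lib.Helper18.sgn_pair_refl_nonsq Q hS.two_ne hδ hs0 hs
      rw [e1, e2, one_mul]) x
  rw [MonoidHom.mul_apply, hs, one_mul, hdet] at h1
  rcases Int.units_eq_one_or (sgn ⇑Q δ x) with h | h
  · exact h
  · exfalso
    rw [h] at h1
    apply hS.two_ne
    have h3 : (-1 : F) = 1 := by simpa using h1
    linear_combination -h3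

variable [hO : OddDim ι]

/-- the character of `GO` with kernel `F^× Ω` -/
noncomputable def dq : ↥(GO Q) →* ℤˣ := (sgn ⇑Q 1).comp (prj Q)

theorem dq_apply (g : ↥(GO Q)) : dq Q g = sgn ⇑Q 1 (prj Q g) := rfl

theorem dq_scU (a : Fˣ) : dq Q (scU Q a) = 1 := by rw [dq_apply, prj_scU, map_one]

theorem det_val_prj (g : ↥(GO Q)) : (prj Q g).1.1.det = 1 :=
  congrArg Units.val (det_prj Q g)

theorem det_Omega (y : ↥(Cfsg.Omega F ⇑Q)) : GeneralLinearGroup.det y.1.1 = 1 := by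
  let φ : ↥(OO Q) →* Fˣ := GeneralLinearGroup.det.comp (OO Q).subtype
  have h1 : y.1 ∈ φ.ker := Abelianization.commutator_subset_ker φ y.2
  exact h1

theorem dq_ofO_Omega (y : ↥(Cfsg.Omega F ⇑Q)) : dq Q (ofO Q y.1) = 1 := by
  rw [dq_apply, prj_ofO Q y.1 (det_Omega Q y)]
  exact Abelianization.commutator_subset_ker (sgn ⇑Q 1) y.2

theorem inn_eq : Cfsg.Inn (Cfsg.POmega F ⇑Q) = (dq Q).ker.map (cG Q) := by
  ext β
  constructor
  · rintro ⟨x, rfl⟩
    obtain ⟨y, rfl⟩ := pm_surjective Q x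
    exact ⟨ofO Q y.1, dq_ofO_Omega Q y, cG_ofO Q y⟩
  · rintro ⟨g, hg, rfl⟩
    have hx : prj Q g ∈ Cfsg.Omega F ⇑Q := mem_Omega_of Q _ (det_val_prj Q g) hg
    have h2 : cG Q g = cG Q (ofO Q (prj Q g)) := by
      conv_lhs => rw [eq_scU_mul_prj Q g, map_mul, cG_scU, one_mul]
    rw [h2]
    exact ⟨pm Q ⟨prj Q g, hx⟩, (cG_ofO Q ⟨prj Q g, hx⟩).symm⟩

theorem det_refl {v : ι → F} (hv : Q v ≠ 0) : GeneralLinearGroup.det (refl Q v).1 = -1 := by
  apply Units.ext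
  show (Cfsg.reflectionMatrix ⇑Q v).det = _
  rw [Cfsg.Agent.Lib.Helper18.det_reflectionMatrix Q hv]
  simp

theorem dq_refl_mul_refl {v w : ι → F} (hv : Q v ≠ 0) (hw : Q w ≠ 0) :
    dq Q (ofO Q (refl Q v * refl Q w)) = sgn ⇑Q 1 (refl Q v) * sgn ⇑Q 1 (refl Q w) := by
  rw [dq_apply, prj_ofO, map_mul]
  rw [Subgroup.coe_mul, map_mul, det_refl Q hv, det_refl Q hw]
  simp

theorem exists_dq_neg : ∃ g, dq Q g = -1 := by
  obtain ⟨δ, hδ⟩ := FiniteField.exists_nonsquare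
    (Cfsg.Agent.Lib.Helper18.ringChar_ne_two hS.two_ne)
  obtain ⟨v1, hv1⟩ := Cfsg.Agent.Lib.Helper18.exists_Q_eq Q hS.two_ne hR.nondeg hR.card 1
  obtain ⟨v2, hv2⟩ := Cfsg.Agent.Lib.Helper18.exists_Q_eq Q hS.two_ne hR.nondeg hR.card δ
  have hδ0 : δ ≠ 0 := by
    rintro rfl
    exact hδ IsSquare.zero
  refine ⟨ofO Q (refl Q v1 * refl Q v2), ?_⟩
  rw [dq_refl_mul_refl Q (by rw [hv1]; exact one_ne_zero) (by rw [hv2]; exact hδ0),
    sgn1_sq Q (by rw [hv1]; exact one_ne_zero) (by rw [hv1]; exact IsSquare.one),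
    sgn1_nonsq Q (by rw [hv2]; exact hδ), mul_one]

theorem dq_surjective : Function.Surjective (dq Q) := by
  intro z
  rcases Int.units_eq_one_or z with rfl | rfl
  · exact ⟨1, map_one _⟩
  · exact exists_dq_neg Q

end char

/-! ### base change -/

section base

variable {K : Type*} [Field K] (Q₀ : QuadraticForm K (ι → K)) [hS₀ : Std Q₀]
variable (j : K →+* F) (hj : (Bm Q₀).map j = Bm Q)

include hj in
theorem polar_mapj (u v : ι → K) :
    polar Q (fun i => j (u i)) (fun i => j (v i)) = j (polar Q₀ u v) := by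
  rw [polar_eq, polar_eq, RingHom.map_dotProduct]
  congr 1
  funext i
  have := RingHom.map_mulVec j (Bm Q₀) v i
  rw [hj] at this
  exact this.symm

include hj in
theorem Q_mapj (v : ι → K) : Q (fun i => j (v i)) = j (Q₀ v) := by
  apply mul_left_cancel₀ hS.two_ne
  have h2 : (2 : F) = j 2 := (map_ofNat j 2).symm
  conv_rhs => rw [h2, ← map_mul]
  have e1 : 2 * Q (fun i => j (v i)) = polar Q (fun i => j (v i)) (fun i => j (v i)) := by
    rw [polar_self]; simp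
  have e2 : 2 * Q₀ v = polar Q₀ v v := by
    rw [polar_self]; simp
  rw [e1, e2, polar_mapj Q Q₀ j hj]

theorem omap_refl (v : ι → K) :
    omap Q Q₀ j hj (refl Q₀ v) = refl Q (fun i => j (v i)) := by
  apply Subtype.ext
  apply Units.ext
  show (Cfsg.reflectionMatrix ⇑Q₀ v).map j = Cfsg.reflectionMatrix ⇑Q (fun i => j (v i))
  ext i k
  have h1 : (Pi.single k 1 : ι → F) = fun i => j ((Pi.single k 1 : ι → K) i) := by
    funext i
    by_cases hik : i = k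
    · subst hik; simp
    · simp [Pi.single_apply, hik]
  have h2 : polar (⇑Q) (fun i => j (v i)) (Pi.single k 1) = j (polar (⇑Q₀) v (Pi.single k 1)) := by
    rw [h1, polar_mapj Q Q₀ j hj]
  simp only [Cfsg.reflectionMatrix, Cfsg.polarVec, Matrix.map_apply, Matrix.sub_apply,
    Matrix.smul_apply, Matrix.vecMulVec_apply, smul_eq_mul, map_sub, map_mul, map_inv₀, h2,
    Q_mapj Q Q₀ j hj]
  congr 1
  by_cases hik : i = k
  · subst hik; simp
  · simp [hik]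

variable [hO : OddDim ι]

theorem dd_gmap (g : ↥(GO Q₀)) :
    dd Q (gmap Q Q₀ j hj g) = Units.map (j : K →* F) (dd Q₀ g) := by
  apply Units.ext
  rw [dd_apply, dd_apply, Units.coe_map, Units.val_mul, Units.val_mul, Units.val_inv_eq_inv_val,
    Units.val_inv_eq_inv_val, Units.val_pow_eq_pow_val, Units.val_pow_eq_pow_val, mu_gmap]
  show (g.1.1.map j).det * _ = j (g.1.1.det * _)
  rw [map_mul, map_inv₀, map_pow, RingHom.map_det]
  rfl

theorem prj_gmap (g : ↥(GO Q₀)) :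
    prj Q (gmap Q Q₀ j hj g) = omap Q Q₀ j hj (prj Q₀ g) := by
  apply Subtype.ext
  apply Units.ext
  show (scU Q (dd Q (gmap Q Q₀ j hj g))⁻¹ * gmap Q Q₀ j hj g).1.1 =
    (scU Q₀ (dd Q₀ g)⁻¹ * g).1.1.map j
  rw [scU_mul_val, scU_mul_val, dd_gmap, gmap_val]
  ext i k
  simp

end base

end Cfsg.Agent.Lib.Helper59.AutO
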