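import Mathlib
import Cfsg.Agent.Lib.Helper59.AutO.Spin
import Cfsg.Agent.Lib.Helper18.AutPSL.FieldCent

set_option autoImplicit false

/-!
Centralisers of field automorphisms of `PΩ_{2m+1}(q)` in `Inndiag`, and the number of classes.
-/

namespace Cfsg.Agent.Lib.Helper59.AutO

open Matrix QuadraticMap
open Cfsg.Agent.Lib.Helper18 (refl sgn)
open Cfsg.Agent.Lib.Helper18.AutPSL (mp mp_apply mp_eq_map mp_one mp_smul nrm nrm_zero nrm_succ
  nrm_succ' nrm_smul nrmS nrmS_zero nrmS_succ hilbert90 hilbert90_one nrmS_surj mp_pow_of_smul)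

variable {ι : Type} [Fintype ι] [DecidableEq ι] {F : Type*} [Field F]
variable (Q : QuadraticForm F (ι → F)) [hS : Std Q]

theorem mem_comap_cent {s : MulAut (Cfsg.POmega F ⇑Q)} {g : ↥(GO Q)} :
    g ∈ (Subgroup.centralizer {s}).comap (cG Q) ↔ cG Q g * s = s * cG Q g := by
  rw [Subgroup.mem_comap, Subgroup.mem_centralizer_singleton_iff]

theorem comm_fl_of_fixed (σ : F ≃+* F) (g : ↥(GO Q)) (h : mp σ g.1.1 = g.1.1) :
    cG Q g * fl Q σ = fl Q σ * cG Q g := by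
  have : gm Q σ g = g := Subtype.ext (Units.ext h)
  rw [fl_mul_cG, this]

theorem exists_fixed_of_comm [Finite F] [Rig Q] (g : ↥(GO Q)) (σ : F ≃+* F) (r : ℕ)
    (hr0 : 0 < r) (hr : orderOf σ = r) (h : cG Q g * fl Q σ = fl Q σ * cG Q g) :
    ∃ c : F, c ≠ 0 ∧ mp σ (c • g.1.1) = c • g.1.1 := by
  have hne : Nonempty ι := hS.ne
  have hσ : σ ^ r = 1 := by rw [← hr]; exact pow_orderOf_eq_one σ
  rw [fl_mul_cG] at h
  have h1 : cG Q (g⁻¹ * gm Q σ g) = 1 := by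
    rw [map_mul, map_inv, ← mul_right_cancel h, inv_mul_cancel]
  obtain ⟨lam, h0, hl⟩ := exists_smul_of_cG_eq_one Q h1
  have h2 : mp σ g.1.1 = lam • g.1.1 := by
    have h3 : g.1⁻¹.1 * mp σ g.1.1 = lam • 1 := hl
    calc mp σ g.1.1 = g.1.1 * (g.1⁻¹.1 * mp σ g.1.1) := by
          rw [← Matrix.mul_assoc, Units.mul_inv, Matrix.one_mul]
      _ = _ := by rw [h3, Matrix.mul_smul, Matrix.mul_one]
  have h5 := mp_pow_of_smul σ g.1.1 lam h2 r
  rw [hσ, mp_one] at h5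
  have h6 : nrmS σ lam r = 1 :=
    (eq_of_smul_eq_smul_GL g.1 (by rw [one_smul]; exact h5)).symm
  obtain ⟨c, hc0, hc⟩ := hilbert90_one σ lam r hr0 hr h6
  refine ⟨c, hc0, ?_⟩
  rw [mp_smul, h2, smul_smul, mul_comm, hc]

theorem sigma_mu_of_fixed (σ : F ≃+* F) (g : ↥(GO Q)) (h : mp σ g.1.1 = g.1.1) :
    σ (mu Q g : F) = (mu Q g : F) := by
  have : gm Q σ g = g := Subtype.ext (Units.ext h)
  have h1 := mu_gmap Q Q (σ : F →+* F) (hS.map_eq _) g
  rw [this] at h1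
  exact h1.symm

/-! ### the subfield subgroup -/

variable {F₀ : Type*} [Field F₀] (Q₀ : QuadraticForm F₀ (ι → F₀)) [hS₀ : Std Q₀]
variable (j : F₀ →+* F) (hj : (Bm Q₀).map j = Bm Q)

/-- `GO(F₀) → Aut(PΩ(F))` -/
noncomputable def Th : ↥(GO Q₀) →* MulAut (Cfsg.POmega F ⇑Q) := (cG Q).comp (gmap Q Q₀ j hj)

theorem Th_apply (g : ↥(GO Q₀)) : Th Q Q₀ j hj g = cG Q (gmap Q Q₀ j hj g) := rfl

theorem ker_Th [Finite F] [Rig Q] : (Th Q Q₀ j hj).ker = (scU Q₀).range := by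
  obtain ⟨i₀⟩ := hS.ne
  ext g
  rw [MonoidHom.mem_ker, Th_apply]
  constructor
  · intro h
    obtain ⟨a, ha0, ha⟩ := exists_smul_of_cG_eq_one Q h
    rw [gmap_val] at ha
    have h3 := congrFun (congrFun ha i₀) i₀
    rw [Matrix.map_apply, Matrix.smul_apply, Matrix.one_apply_eq, smul_eq_mul, mul_one] at h3
    have h0 : g.1.1 i₀ i₀ ≠ 0 := by
      intro h0
      rw [h0, map_zero] at h3
      exact ha0 h3.symm
    refine ⟨Units.mk0 _ h0, ?_⟩
    apply Subtype.ext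
    apply Units.ext
    rw [scU_val]
    ext i k
    have h2 := congrFun (congrFun ha i) k
    rw [Matrix.map_apply, Matrix.smul_apply] at h2
    rw [Matrix.smul_apply, Units.val_mk0]
    by_cases hik : i = k
    · subst hik
      rw [Matrix.one_apply_eq, smul_eq_mul, mul_one] at h2 ⊢
      exact j.injective (by rw [h2, h3])
    · rw [Matrix.one_apply_ne hik, smul_zero] at h2 ⊢
      exact j.injective (by rw [h2, map_zero])
  · rintro ⟨c, rfl⟩
    apply cG_eq_one_of_smul Q (a := j c)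
    rw [gmap_val, scU_val]
    ext i k
    by_cases hik : i = k
    · subst hik
      simp
    · simp [hik]

theorem exists_descent [Finite F] [Rig Q] (σ : F ≃+* F)
    (hjσ : ∀ x, σ x = x ↔ x ∈ Set.range j) (r : ℕ) (hr0 : 0 < r) (hr : orderOf σ = r)
    (g : ↥(GO Q)) (h : cG Q g * fl Q σ = fl Q σ * cG Q g) :
    ∃ (c : F) (hc : c ≠ 0) (g₀ : ↥(GO Q₀)), gmap Q Q₀ j hj g₀ = sc Q c hc * g := by
  obtain ⟨c, hc0, hc⟩ := exists_fixed_of_comm Q g σ r hr0 hr h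
  have h3 : ∀ i k, ∃ y, j y = c * g.1.1 i k := fun i k =>
    (hjσ _).1 (congrFun (congrFun hc i) k)
  choose M₀ hM₀ using h3
  have hM : (Matrix.of M₀).map j = (sc Q c hc0 * g).1.1 := by
    rw [sc_mul_val]
    ext i k
    exact hM₀ i k
  have hdet : (Matrix.of M₀).det ≠ 0 := by
    intro h0
    have h4 := RingHom.map_det j (Matrix.of M₀)
    rw [h0, map_zero] at h4
    apply det_GL_ne_zero (sc Q c hc0 * g).1
    rw [← hM]
    exact h4.symm
  have hfix : σ (mu Q (sc Q c hc0 * g) : F) = (mu Q (sc Q c hc0 * g) : F) := by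
    apply sigma_mu_of_fixed
    rw [sc_mul_val]
    exact hc
  obtain ⟨e₀, he₀⟩ := (hjσ _).1 hfix
  have he₀0 : e₀ ≠ 0 := by
    rintro rfl
    rw [map_zero] at he₀
    exact (mu Q (sc Q c hc0 * g)).ne_zero he₀.symm
  have hJ : (Matrix.of M₀)ᵀ * Bm Q₀ * Matrix.of M₀ = e₀ • Bm Q₀ := by
    have hinj : Function.Injective (fun M : Matrix ι ι F₀ => M.map j) :=
      Matrix.map_injective j.injective
    apply hinj
    show ((Matrix.of M₀)ᵀ * Bm Q₀ * Matrix.of M₀).map j = (e₀ • Bm Q₀).map j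
    rw [Matrix.map_mul, Matrix.map_mul, transpose_map, hM, hj, mu_spec Q, ← he₀,
      map_smul_B Q Q₀ j hj]
  refine ⟨c, hc0, ⟨GeneralLinearGroup.mkOfDetNeZero (Matrix.of M₀) hdet,
    (mem_GO_iff Q₀).2 ⟨Units.mk0 e₀ he₀0, hJ⟩⟩, ?_⟩
  apply Subtype.ext
  apply Units.ext
  exact hM

theorem comm_fl_gmap (σ : F ≃+* F) (hjσ : ∀ x, σ x = x ↔ x ∈ Set.range j) (g₀ : ↥(GO Q₀)) :
    cG Q (gmap Q Q₀ j hj g₀) * fl Q σ = fl Q σ * cG Q (gmap Q Q₀ j hj g₀) := by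
  apply comm_fl_of_fixed
  ext i k
  exact (hjσ _).2 ⟨g₀.1.1 i k, rfl⟩

theorem range_Th [Finite F] [Rig Q] (σ : F ≃+* F)
    (hjσ : ∀ x, σ x = x ↔ x ∈ Set.range j) (r : ℕ) (hr0 : 0 < r) (hr : orderOf σ = r) :
    (Th Q Q₀ j hj).range = (cG Q).range ⊓ Subgroup.centralizer {fl Q σ} := by
  ext y
  constructor
  · rintro ⟨g, rfl⟩
    refine ⟨⟨_, rfl⟩, ?_⟩
    apply Subgroup.mem_centralizer_singleton_iff.2
    exact comm_fl_gmap Q Q₀ j hj σ hjσ g
  · rintro ⟨⟨g, rfl⟩, h2⟩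
    obtain ⟨c, hc0, g₀, e⟩ := exists_descent Q Q₀ j hj σ hjσ r hr0 hr g
      (Subgroup.mem_centralizer_singleton_iff.1 h2)
    refine ⟨g₀, ?_⟩
    rw [Th_apply, e, map_mul, cG_sc, one_mul]

/-! ### the image of the centraliser under the character -/

section count

variable [Fintype F] [Fintype F₀] [hR : Rig Q] [hR₀ : Rig Q₀] [hO : OddDim ι]

theorem dq_sc (c : F) (hc : c ≠ 0) : dq Q (sc Q c hc) = 1 := dq_scU Q _

theorem dq_gmap (g₀ : ↥(GO Q₀)) :
    dq Q (gmap Q Q₀ j hj g₀) = sgn ⇑Q 1 (omap Q Q₀ j hj (prj Q₀ g₀)) := by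
  rw [dq_apply, prj_gmap]

include hj in
theorem map_dq_cent_of_sq (σ : F ≃+* F) (hjσ : ∀ x, σ x = x ↔ x ∈ Set.range j) (r : ℕ)
    (hr0 : 0 < r) (hr : orderOf σ = r) (hsq : ∀ a : F₀, IsSquare (j a)) :
    ((Subgroup.centralizer {fl Q σ}).comap (cG Q)).map (dq Q) = ⊥ := by
  rw [eq_bot_iff]
  rintro _ ⟨g, hg, rfl⟩
  rw [Subgroup.mem_bot]
  obtain ⟨c, hc0, g₀, e⟩ := exists_descent Q Q₀ j hj σ hjσ r hr0 hr g
    ((mem_comap_cent Q).1 hg)
  have h1 : dq Q g = dq Q (gmap Q Q₀ j hj g₀) := by rw [e, map_mul, dq_sc, one_mul]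
  rw [h1, dq_gmap]
  have h2 := hom_eq_det Q₀ ((sgn ⇑Q 1).comp (omap Q Q₀ j hj)) (by
    intro v hv
    rw [MonoidHom.comp_apply, omap_refl]
    apply sgn1_sq
    · rw [Q_mapj Q Q₀ j hj]
      intro h0
      apply hv
      apply j.injective
      rw [h0, map_zero]
    · rw [Q_mapj Q Q₀ j hj]
      exact hsq _) (prj Q₀ g₀)
  rw [det_val_prj, MonoidHom.comp_apply] at h2
  rcases Int.units_eq_one_or (sgn ⇑Q 1 (omap Q Q₀ j hj (prj Q₀ g₀))) with h | h
  · exact h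
  · exfalso
    rw [h] at h2
    apply hS₀.two_ne
    have h3 : (-1 : F₀) = 1 := by simpa using h2
    linear_combination -h3

include hj in
theorem map_dq_cent_of_nonsq (σ : F ≃+* F) (hjσ : ∀ x, σ x = x ↔ x ∈ Set.range j)
    (δ₀ : F₀) (hδ : ¬ IsSquare (j δ₀)) :
    ((Subgroup.centralizer {fl Q σ}).comap (cG Q)).map (dq Q) = ⊤ := by
  obtain ⟨v1, hv1⟩ := Cfsg.Agent.Lib.Helper18.exists_Q_eq Q₀ hS₀.two_ne hR₀.nondeg hR₀.card 1
  obtain ⟨v2, hv2⟩ := Cfsg.Agent.Lib.Helper18.exists_Q_eq Q₀ hS₀.two_ne hR₀.nondeg hR₀.card δ₀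
  have hδ0 : δ₀ ≠ 0 := by
    rintro rfl
    apply hδ
    rw [map_zero]
    exact IsSquare.zero
  have hdet : GeneralLinearGroup.det (refl Q₀ v1 * refl Q₀ v2).1 = 1 := by
    rw [Subgroup.coe_mul, map_mul, det_refl Q₀ (by rw [hv1]; exact one_ne_zero),
      det_refl Q₀ (by rw [hv2]; exact hδ0)]
    simp
  have key : dq Q (gmap Q Q₀ j hj (ofO Q₀ (refl Q₀ v1 * refl Q₀ v2))) = -1 := by
    rw [dq_gmap, prj_ofO Q₀ _ hdet, map_mul, map_mul, omap_refl, omap_refl,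
      sgn1_sq Q (by rw [Q_mapj Q Q₀ j hj, hv1, map_one]; exact one_ne_zero)
        (by rw [Q_mapj Q Q₀ j hj, hv1, map_one]; exact IsSquare.one),
      sgn1_nonsq Q (by rw [Q_mapj Q Q₀ j hj, hv2]; exact hδ), mul_one]
  rw [eq_top_iff]
  intro z _
  rcases Int.units_eq_one_or z with rfl | rfl
  · exact Subgroup.one_mem _
  · exact ⟨_, (mem_comap_cent Q).2 (comm_fl_gmap Q Q₀ j hj σ hjσ _), key⟩

end count

/-! ### squares in extensions -/

omit [Fintype ι] [DecidableEq ι] in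
theorem not_isSquare_of_odd (h2 : (2 : F) ≠ 0) (σ : F ≃+* F)
    (hjσ : ∀ x, σ x = x ↔ x ∈ Set.range j) (r : ℕ) (hodd : Odd r) (hσ : σ ^ r = 1)
    (δ₀ : F₀) (hδ : ¬ IsSquare δ₀) : ¬ IsSquare (j δ₀) := by
  rintro ⟨t, ht⟩
  have h1 : σ t * σ t = t * t := by
    rw [← map_mul, ← ht]
    exact (hjσ _).2 ⟨δ₀, rfl⟩
  rcases mul_self_eq_mul_self_iff.1 h1 with h | h
  · obtain ⟨s, hs⟩ := (hjσ _).1 h
    apply hδ
    refine ⟨s, ?_⟩
    apply j.injective
    rw [ht, map_mul, hs]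
  · have h3 : ∀ k : ℕ, (σ ^ k) t = (-1) ^ k * t := by
      intro k
      induction k with
      | zero => simp
      | succ k ih =>
        rw [Cfsg.Agent.Lib.Helper18.AutPSL.pow_succ_apply, ih, map_mul, map_pow, map_neg, map_one, h]
        ring
    have h4 := h3 r
    rw [hσ, hodd.neg_one_pow] at h4
    have h5 : t = 0 := by
      have h6 : 2 * t = 0 := by
        have : t = -1 * t := h4
        linear_combination this
      rcases mul_eq_zero.1 h6 with h7 | h7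
      · exact absurd h7 h2
      · exact h7
    apply hδ
    have : δ₀ = 0 := by
      apply j.injective
      rw [ht, h5, mul_zero, map_zero]
    rw [this]
    exact IsSquare.zero

omit [Fintype ι] [DecidableEq ι] in
theorem isSquare_of_card_sq [Fintype F] [Fintype F₀] (h2 : (2 : F) ≠ 0)
    (hcard : Fintype.card F = Fintype.card F₀ ^ 2) (a : F₀) : IsSquare (j a) := by
  by_cases ha : a = 0
  · rw [ha, map_zero]
    exact IsSquare.zero
  have hja : j a ≠ 0 := by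
    intro h0
    apply ha
    apply j.injective
    rw [h0, map_zero]
  rw [FiniteField.isSquare_iff (Cfsg.Agent.Lib.Helper18.ringChar_ne_two h2) hja, hcard]
  have hodd : Fintype.card F₀ % 2 = 1 := by
    have h3 := Cfsg.Agent.Lib.Helper18.card_odd h2
    rw [hcard, Nat.pow_mod] at h3
    rcases Nat.mod_two_eq_zero_or_one (Fintype.card F₀) with h | h
    · rw [h] at h3
      simp at h3
    · exact h
  obtain ⟨k, hk⟩ : ∃ k, Fintype.card F₀ = 2 * k + 1 := ⟨Fintype.card F₀ / 2, by omega⟩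
  have h4 : Fintype.card F₀ ^ 2 / 2 = (Fintype.card F₀ - 1) * (k + 1) := by
    rw [hk]
    have : (2 * k + 1) ^ 2 = 2 * ((2 * k + 1 - 1) * (k + 1)) + 1 := by
      simp only [Nat.add_sub_cancel]
      ring
    rw [this]
    omega
  rw [h4, pow_mul, ← map_pow, FiniteField.pow_card_sub_one_eq_one a ha, map_one, one_pow]

end Cfsg.Agent.Lib.Helper59.AutO
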