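import Mathlib
import Cfsg.Agent.Lib.Helper59.AutO.Cent
import Cfsg.Agent.Lib.Helper49.HypPairs

set_option autoImplicit false

/-!
The form `x₀² + Σ xᵢ yᵢ` satisfies the standing hypotheses.
-/

namespace Cfsg.Agent.Lib.Helper59.AutO

open Matrix QuadraticMap
open Cfsg.Agent.Lib.Helper49 Cfsg.Agent.Lib.Helper18.OmegaCenter

variable {F : Type*} [Field F] {K : Type*} [Field K]

theorem Bm_odd_map (m : ℕ) (j : K →+* F) : (Bm (oddQF m K)).map j = Bm (oddQF m F) := by
  ext a b
  have hs : ∀ (a x : Unit ⊕ (Fin m ⊕ Fin m)),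
      j ((Pi.single a 1 : Unit ⊕ (Fin m ⊕ Fin m) → K) x) =
        (Pi.single a 1 : Unit ⊕ (Fin m ⊕ Fin m) → F) x := by
    intro a x
    by_cases h : x = a
    · subst h; simp
    · simp [Pi.single_apply, h]
  rw [Matrix.map_apply, Bm_apply, Bm_apply, oddQF_coe, oddQF_coe, polar_quadFormOdd,
    polar_quadFormOdd]
  simp only [map_add, map_mul, map_sum, map_ofNat, hs]

theorem card_odd_index (m : ℕ) : Fintype.card (Unit ⊕ (Fin m ⊕ Fin m)) = 2 * m + 1 := by
  simp
  ring

instance oddDim (m : ℕ) : OddDim (Unit ⊕ (Fin m ⊕ Fin m)) where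
  odd := by
    rw [card_odd_index]
    omega

theorem std_odd (m : ℕ) (h2 : (2 : F) ≠ 0) : Std (oddQF m F) where
  two_ne := h2
  det_ne := by
    have := (LinearMap.BilinForm.nondegenerate_iff_det_ne_zero
      (Pi.basisFun F (Unit ⊕ (Fin m ⊕ Fin m)))).1 (oddQF_nondegenerate m F h2)
    rwa [LinearMap.BilinForm.toMatrix_basisFun] at this
  ne := ⟨Sum.inl ()⟩
  map_eq σ := Bm_odd_map m σ

theorem rig_odd [Fintype F] (m : ℕ) (hm : 3 ≤ m) (h2 : (2 : F) ≠ 0) : Rig (oddQF m F) where
  nondeg := oddQF_nondegenerate m F h2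
  frame := ⟨_, _, frame_odd m hm⟩
  center := by
    have h1 := card_center_eq_one (oddQF m F) (oddQF_nondegenerate m F h2) (frame_odd m hm) (Or.inr (by
      rintro ⟨g, hg, hg1⟩
      have h3 := det_of_mem_Omega (oddQF m F) g hg
      rw [hg1, Matrix.det_neg, card_odd_index, det_one, mul_one, pow_succ, pow_mul] at h3
      apply h2
      have h4 : (-1 : F) = 1 := by simpa using h3
      linear_combination -h4))
    intro z hz
    rw [Subgroup.card_eq_one] at h1
    rw [h1] at hz
    exact hz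
  card := by
    rw [card_odd_index]
    omega

end Cfsg.Agent.Lib.Helper59.AutO
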