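import Mathlib
import Cfsg.Agent.Lib.Helper59.AutO.Inst
import Cfsg.Agent.Lib.Helper1.PSpAut.Main
import Cfsg.Agent.Lib.Helper18.AutPSL.Card

set_option autoImplicit false

/-!
Field automorphisms of prime order of `PΩ_{2m+1}(q)`, the order of `Aut` and the structure of
`Out`; everything under the hypothesis that the semisimilarities induce all automorphisms.
-/

namespace Cfsg.Agent.Lib.Helper59.AutO

open Matrix QuadraticMap
open Cfsg.Agent.Lib.Helper18 (refl sgn reflSet closure_reflSet_eq_top)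
open Cfsg.Agent.Lib.Helper18.AutPSL (splitClassCount_eq exists_subfield_emb card_eq_of_surjective
  card_gal exists_algEquiv)
open Cfsg.Agent.Lib.Helper1.PSpAut (isConjUnder_conj splitClassCount_conj_aut cent_equiv_conj
  orderOf_conj_eq)

section Abstract

/-- `A = c(H) Φ(Γ)` together with a character `d` of `H` gives a homomorphism `A → D × Γ`. -/
theorem exists_hom2 {A Γ H D : Type*} [Group A] [Group Γ] [Group H] [Group D]
    (c : H →* A) (Φ : Γ →* A) (d : H →* D)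
    (h1 : ∀ α : A, ∃ (g : H) (σ : Γ), α = c g * Φ σ)
    (h2 : ∀ (σ : Γ) (h : H), ∃ h' : H, Φ σ * c h = c h' * Φ σ ∧ d h' = d h)
    (h3 : ∀ (g : H) (σ : Γ), c g = Φ σ → σ = 1 ∧ d g = 1) :
    ∃ τ : A →* D × Γ, ∀ g σ, τ (c g * Φ σ) = (d g, σ) := by
  have huniq : ∀ (g g' : H) (σ σ' : Γ), c g * Φ σ = c g' * Φ σ' → d g = d g' ∧ σ = σ' := by
    intro g g' σ σ' h
    have : c (g'⁻¹ * g) = Φ (σ' * σ⁻¹) := by
      rw [map_mul, map_mul, map_inv, map_inv, inv_mul_eq_iff_eq_mul, ← mul_assoc, ← h,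
        mul_inv_cancel_right]
    obtain ⟨h4, h5⟩ := h3 _ _ this
    rw [map_mul, map_inv, inv_mul_eq_one] at h5
    exact ⟨h5.symm, (mul_inv_eq_one.1 h4).symm⟩
  choose gg ss hs using h1
  have hτ : ∀ (α : A) (g : H) (σ : Γ), α = c g * Φ σ → (d (gg α), ss α) = (d g, σ) := by
    intro α g σ h
    obtain ⟨e1, e2⟩ := huniq _ _ _ _ ((hs α).symm.trans h)
    rw [e1, e2]
  let τ : A →* D × Γ := MonoidHom.mk' (fun α => (d (gg α), ss α)) (by
    intro α β
    obtain ⟨h', hh', hd'⟩ := h2 (ss α) (gg β)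
    have := hτ (α * β) (gg α * h') (ss α * ss β) (by
      conv_lhs => rw [hs α, hs β]
      rw [map_mul, map_mul, mul_assoc, ← mul_assoc (Φ (ss α)), hh']
      simp only [mul_assoc])
    rw [this, map_mul, hd']
    rfl)
  exact ⟨τ, fun g σ => hτ _ g σ rfl⟩

theorem ker_hom2 {A Γ H D : Type*} [Group A] [Group Γ] [Group H] [Group D]
    (c : H →* A) (Φ : Γ →* A) (d : H →* D)
    (h1 : ∀ α : A, ∃ (g : H) (σ : Γ), α = c g * Φ σ)
    (τ : A →* D × Γ) (hτ : ∀ g σ, τ (c g * Φ σ) = (d g, σ)) : τ.ker = d.ker.map c := by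
  ext α
  rw [MonoidHom.mem_ker]
  constructor
  · intro h
    obtain ⟨g, σ, rfl⟩ := h1 α
    rw [hτ, Prod.mk_eq_one] at h
    refine ⟨g, h.1, ?_⟩
    rw [h.2, map_one, mul_one]
  · rintro ⟨g, hg, rfl⟩
    have := hτ g 1
    rw [map_one, mul_one] at this
    rw [this, Prod.mk_eq_one]
    exact ⟨hg, rfl⟩

theorem surj_hom2 {A Γ H D : Type*} [Group A] [Group Γ] [Group H] [Group D]
    (c : H →* A) (Φ : Γ →* A) (d : H →* D) (hd : Function.Surjective d)
    (τ : A →* D × Γ) (hτ : ∀ g σ, τ (c g * Φ σ) = (d g, σ)) : Function.Surjective τ := by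
  rintro ⟨z, σ⟩
  obtain ⟨g, rfl⟩ := hd z
  exact ⟨_, hτ g σ⟩

end Abstract

section Gal

variable {F : Type*} [Field F]

/-- ring automorphisms of a finite field are the Galois group over the prime field -/
noncomputable def galEquiv (p : ℕ) [Fact p.Prime] [Algebra (ZMod p) F] :
    (F ≃ₐ[ZMod p] F) ≃* (F ≃+* F) :=
  MulEquiv.ofBijective
    ({ toFun := fun σ => σ.toRingEquiv
       map_one' := rfl
       map_mul' := fun _ _ => rfl } : (F ≃ₐ[ZMod p] F) →* (F ≃+* F))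
    ⟨fun a b h => by
      ext x
      exact congrArg (fun s : F ≃+* F => s x) h, fun σ => exists_algEquiv p σ⟩

theorem ringAut_facts [Fintype F] {p f : ℕ} [Fact p.Prime] (hF : Fintype.card F = p ^ f) :
    IsCyclic (F ≃+* F) ∧ Nat.card (F ≃+* F) = f := by
  have hchar : CharP F p := charP_of_card_eq_prime_pow hF
  let _ : Algebra (ZMod p) F := ZMod.algebra F p
  constructor
  · exact isCyclic_of_surjective (galEquiv (F := F) p) (galEquiv (F := F) p).surjective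
  · rw [← Nat.card_congr (galEquiv (F := F) p).toEquiv, card_gal hF]

theorem two_ne_of_odd_card [Fintype F] (h : Odd (Fintype.card F)) : (2 : F) ≠ 0 := by
  intro h2
  have h3 : ringChar F = 2 := by
    have h4 : ringChar F ∣ 2 := ringChar.dvd (R := F) (x := 2) (by exact_mod_cast h2)
    rcases (Nat.dvd_prime Nat.prime_two).1 h4 with h5 | h5
    · exact absurd h5 (CharP.ringChar_ne_one)
    · exact h5
  have h6 := FiniteField.even_card_of_char_two h3
  rcases h with ⟨k, hk⟩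
  omega

end Gal

variable {ι : Type} [Fintype ι] [DecidableEq ι] {F : Type*} [Field F]
variable (Q : QuadraticForm F (ι → F)) [hS : Std Q]

theorem coset_conj [Finite F] [OddDim ι] [Rig Q] (hN : (cG Q).range.Normal)
    (x δ : MulAut (Cfsg.POmega F ⇑Q)) (hx : Cfsg.IsFieldAutClassPOmega ⇑Q x) {r : ℕ} (hr : 0 < r)
    (hxr : orderOf x = r) (hδ : δ ∈ Cfsg.pgoAut F ⇑Q) :
    orderOf (δ * x) = r ↔ Cfsg.IsConjUnder (Cfsg.pgoAut F ⇑Q) x (δ * x) := by
  rw [pgo_eq] at hδ ⊢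
  obtain ⟨α, φ, σ, hσ, h, e0⟩ := hx
  have e : α * x * α⁻¹ = fl Q σ := by rw [e0]; exact eq_fl_of_isField Q h
  constructor
  swap
  · rintro ⟨h, -, e⟩
    rw [e, ← hxr]
    exact orderOf_conj_eq h x
  · intro ho
    have hσr : orderOf σ = r := by
      rw [← orderOf_injective _ (fl_injective Q), ← e, orderOf_conj_eq, hxr]
    obtain ⟨d, hd⟩ := hN.conj_mem δ hδ α
    have e2 : cG Q d * fl Q σ = α * (δ * x) * α⁻¹ := by
      rw [hd, ← e]
      group
    obtain ⟨b, hb⟩ := field_core Q d σ r hr hσr (by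
      rw [e2, conj_pow, ← ho, pow_orderOf_eq_one]
      group)
    rw [← isConjUnder_conj _ hN α, e, ← e2]
    exact ⟨cG Q b, ⟨b, rfl⟩, hb⟩

theorem field_cent [Fintype F] [OddDim ι] [Rig Q] {p f : ℕ} [Fact p.Prime]
    (hF : Fintype.card F = p ^ f) (hN : (cG Q).range.Normal)
    (x : MulAut (Cfsg.POmega F ⇑Q)) (hx : Cfsg.IsFieldAutClassPOmega ⇑Q x) {r : ℕ}
    (hr : r.Prime) (hxr : orderOf x = r) (F₀ : Type*) [Field F₀] [Fintype F₀]
    (hF₀ : Fintype.card F₀ = p ^ (f / r)) (Q₀ : QuadraticForm F₀ (ι → F₀)) [Std Q₀] [Rig Q₀]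
    (hB : ∀ j : F₀ →+* F, (Bm Q₀).map j = Bm Q) :
    r ∣ f ∧ Nonempty (↥(Cfsg.pgoAut F ⇑Q ⊓ Subgroup.centralizer {x}) ≃* ↥(Cfsg.pgoAut F₀ ⇑Q₀)) ∧
      (Odd r → Cfsg.splitClassCount (Cfsg.pgoAut F ⇑Q) (Cfsg.Inn (Cfsg.POmega F ⇑Q)) x = 1) ∧
      (r = 2 → Cfsg.splitClassCount (Cfsg.pgoAut F ⇑Q) (Cfsg.Inn (Cfsg.POmega F ⇑Q)) x = 2) := by
  classical
  obtain ⟨α, φ, σ, hσ, h, e0⟩ := hx
  have e : α * x * α⁻¹ = fl Q σ := by rw [e0]; exact eq_fl_of_isField Q h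
  have hσr : orderOf σ = r := by
    rw [← orderOf_injective _ (fl_injective Q), ← e, orderOf_conj_eq, hxr]
  obtain ⟨hdvd, hemb⟩ := exists_subfield_emb hF σ hσr hr.pos
  obtain ⟨j, hj⟩ := hemb F₀ hF₀
  have hcount : Cfsg.splitClassCount (Cfsg.pgoAut F ⇑Q) (Cfsg.Inn (Cfsg.POmega F ⇑Q)) x =
      (((Subgroup.centralizer {fl Q σ}).comap (cG Q)).map (dq Q)).index := by
    rw [pgo_eq, ← splitClassCount_conj_aut _ _ hN (Cfsg.innNormal _) α x, e, inn_eq,
      splitClassCount_eq (cG Q) (dq Q) (dq_surjective Q)]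
  refine ⟨hdvd, ?_, ?_, ?_⟩
  · rw [pgo_eq, pgo_eq]
    obtain ⟨e1⟩ := cent_equiv_conj (cG Q).range hN α x
    rw [e] at e1
    have hrg := range_Th Q Q₀ j (hB j) σ hj r hr.pos hσr
    have hk : (Th Q Q₀ j (hB j)).ker = (cG Q₀).ker := by rw [ker_Th, ker_cG]
    exact ⟨e1.trans ((MulEquiv.subgroupCongr hrg.symm).trans
      ((QuotientGroup.quotientKerEquivRange (Th Q Q₀ j (hB j))).symm.trans
        ((QuotientGroup.quotientMulEquivOfEq hk).trans
          (QuotientGroup.quotientKerEquivRange (cG Q₀)))))⟩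
  · intro hodd
    obtain ⟨δ₀, hδ₀⟩ := FiniteField.exists_nonsquare (F := F₀)
      (Cfsg.Agent.Lib.Helper18.ringChar_ne_two (Std.two_ne Q₀))
    rw [hcount, map_dq_cent_of_nonsq Q Q₀ j (hB j) σ hj δ₀
      (not_isSquare_of_odd j hS.two_ne σ hj r hodd (by rw [← hσr]; exact pow_orderOf_eq_one σ)
        δ₀ hδ₀), Subgroup.index_top]
  · intro h2
    have hcard : Fintype.card F = Fintype.card F₀ ^ 2 := by
      rw [hF, hF₀, ← pow_mul, h2, Nat.div_mul_cancel (h2 ▸ hdvd)]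
    rw [hcount, map_dq_cent_of_sq Q Q₀ j (hB j) σ hj r hr.pos hσr
      (isSquare_of_card_sq j hS.two_ne hcard), Subgroup.index_bot]
    simp

/-! ### the whole automorphism group -/

section Aut

variable [Fintype F] [hO : OddDim ι] [hR : Rig Q]

theorem sgn_omap (σ : F ≃+* F) (x : ↥(OO Q)) :
    sgn ⇑Q 1 (omap Q Q (σ : F →+* F) (hS.map_eq _) x) = sgn ⇑Q 1 x := by
  have : (sgn ⇑Q 1).comp (omap Q Q (σ : F →+* F) (hS.map_eq _)) = sgn ⇑Q 1 := by
    apply MonoidHom.eq_of_eqOn_dense (closure_reflSet_eq_top Q hS.two_ne hR.nondeg)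
    rintro _ ⟨v, hv, rfl⟩
    show sgn ⇑Q 1 (omap Q Q (σ : F →+* F) (hS.map_eq _) (refl Q v)) = _
    rw [omap_refl]
    have hQ : Q (fun i => (σ : F →+* F) (v i)) = σ (Q v) := Q_mapj Q Q (σ : F →+* F) (hS.map_eq _) v
    by_cases hsq : IsSquare (Q v)
    · rw [sgn1_sq Q hv hsq, sgn1_sq Q (by rw [hQ]; simpa using hv) (by rw [hQ]; exact hsq.map σ)]
    · rw [sgn1_nonsq Q hsq, sgn1_nonsq Q (by
        rw [hQ]
        intro h
        apply hsq
        have := h.map σ.symm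
        simpa using this)]
  exact congrArg (fun φ : ↥(OO Q) →* ℤˣ => φ x) this

theorem dq_gm (σ : F ≃+* F) (g : ↥(GO Q)) : dq Q (gm Q σ g) = dq Q g := by
  rw [dq_gmap, sgn_omap, dq_apply]

theorem exists_tau (hAut : Cfsg.gammaPOmega F ⇑Q = ⊤) :
    ∃ τ : MulAut (Cfsg.POmega F ⇑Q) →* ℤˣ × (F ≃+* F), Function.Surjective τ ∧
      τ.ker = Cfsg.Inn (Cfsg.POmega F ⇑Q) := by
  obtain ⟨τ, hτ⟩ := exists_hom2 (cG Q) (fl Q) (dq Q) (exists_of_gamma Q hAut)
    (fun σ h => ⟨gm Q σ h, fl_mul_cG Q σ h, dq_gm Q σ h⟩)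
    (by
      intro g σ h
      have h1 := eq_one_of_cG_eq_fl Q g σ h
      refine ⟨h1, ?_⟩
      rw [h1, map_one] at h
      have h2 : g ∈ (cG Q).ker := h
      rw [ker_cG] at h2
      obtain ⟨a, rfl⟩ := h2
      exact dq_scU Q a)
  refine ⟨τ, surj_hom2 _ _ _ (dq_surjective Q) τ hτ, ?_⟩
  rw [ker_hom2 _ _ _ (exists_of_gamma Q hAut) τ hτ, inn_eq]

omit [Fintype F] hO in
theorem conj_injective :
    Function.Injective (MulAut.conj : Cfsg.POmega F ⇑Q →* MulAut (Cfsg.POmega F ⇑Q)) := by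
  rw [injective_iff_map_eq_one]
  intro x hx
  obtain ⟨y, rfl⟩ := pm_surjective Q x
  have hy : y ∈ Subgroup.center ↥(Cfsg.Omega F ⇑Q) := by
    rw [Subgroup.mem_center_iff]
    intro z
    have h1 := congrArg (fun β : MulAut (Cfsg.POmega F ⇑Q) => β (pm Q z)) hx
    have h2 : pm Q (y * z * y⁻¹) = pm Q z := h1
    have h3 := pm_inj Q h2
    rw [mul_inv_eq_iff_eq_mul] at h3
    exact h3.symm
  rw [hR.center y hy]
  rfl

theorem card_aut {p f : ℕ} [Fact p.Prime] (hF : Fintype.card F = p ^ f)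
    (hAut : Cfsg.gammaPOmega F ⇑Q = ⊤) :
    Nat.card (MulAut (Cfsg.POmega F ⇑Q)) = 2 * f * Nat.card (Cfsg.POmega F ⇑Q) := by
  obtain ⟨τ, hτs, hτk⟩ := exists_tau Q hAut
  rw [card_eq_of_surjective τ hτs, hτk, Nat.card_prod, (ringAut_facts hF).2,
    ← Nat.card_congr (MonoidHom.ofInjective (conj_injective Q)).toEquiv]
  have : Nat.card ℤˣ = 2 := by simp
  rw [this]
  ring

theorem out_equiv {p f : ℕ} [Fact p.Prime] (hf : 1 ≤ f) (hF : Fintype.card F = p ^ f)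
    (hAut : Cfsg.gammaPOmega F ⇑Q = ⊤) :
    Nonempty (Cfsg.Out (Cfsg.POmega F ⇑Q) ≃* Multiplicative (ZMod 2 × ZMod f)) := by
  obtain ⟨τ, hτs, hτk⟩ := exists_tau Q hAut
  obtain ⟨hcyc, hcard⟩ := ringAut_facts hF
  have : NeZero f := ⟨by omega⟩
  have e1 : ℤˣ ≃* Multiplicative (ZMod 2) := mulEquivOfCyclicCardEq (by
    rw [Nat.card_eq_fintype_card, Nat.card_eq_fintype_card, Fintype.card_multiplicative, ZMod.card]
    rfl)
  have e2 : (F ≃+* F) ≃* Multiplicative (ZMod f) := mulEquivOfCyclicCardEq (by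
    rw [hcard, Nat.card_eq_fintype_card, Fintype.card_multiplicative, ZMod.card])
  exact ⟨(QuotientGroup.quotientMulEquivOfEq hτk.symm).trans
    ((QuotientGroup.quotientKerEquivOfSurjective τ hτs).trans
      ((MulEquiv.prodCongr e1 e2).trans (MulEquiv.prodMultiplicative _ _).symm))⟩

end Aut

end Cfsg.Agent.Lib.Helper59.AutO
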